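import Mathlib
import Cfsg.Prelude.Def_Transfer
import Cfsg.Agent.S0041
import Cfsg.Agent.S0144
import Cfsg.Agent.Lib.SolvableNormalP

/-!
Small general facts about finite groups with few element orders.
-/

set_option autoImplicit false

namespace Cfsg.Agent.H497

open Subgroup

/-- Commuting elements of orders divisible by `p`, `q` give an element of order `p * q`. -/
theorem exists_orderOf_mul {G : Type*} [Group G] {p q : ℕ} (hp : p.Prime) (hq : q.Prime)
    (hpq : p ≠ q) {a b : G} (h : Commute a b) (ha0 : orderOf a ≠ 0) (hb0 : orderOf b ≠ 0)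
    (ha : p ∣ orderOf a) (hb : q ∣ orderOf b) : ∃ g : G, orderOf g = p * q := by
  have h1 := orderOf_pow_orderOf_div ha0 ha
  have h2 := orderOf_pow_orderOf_div hb0 hb
  refine ⟨a ^ (orderOf a / p) * b ^ (orderOf b / q), ?_⟩
  rw [(h.pow_pow _ _).orderOf_mul_eq_mul_orderOf_of_coprime, h1, h2]
  rw [h1, h2]
  exact (Nat.coprime_primes hp hq).mpr hpq

/-- In a finite group without elements of order `p * q` nontrivial `p`-elements and `q`-elements
do not commute. -/
theorem eq_one_of_commute {G : Type*} [Group G] [Finite G] {p q : ℕ} (hp : p.Prime) (hq : q.Prime)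
    (hpq : p ≠ q) (hno : ∀ g : G, orderOf g ≠ p * q) {a b : G} (h : Commute a b)
    (ha : p ∣ orderOf a) {B : Subgroup G} (hB : IsPGroup q B) (hb : b ∈ B) : b = 1 := by
  by_contra hb1
  have : Fact q.Prime := ⟨hq⟩
  have hb' : (⟨b, hb⟩ : B) ≠ 1 := fun h0 => hb1 (congrArg Subtype.val h0)
  have h2 : q ∣ orderOf b := by
    have := hB.dvd_orderOf hb'
    rwa [← Subgroup.orderOf_coe] at this
  obtain ⟨g, hg⟩ := exists_orderOf_mul hp hq hpq h (orderOf_pos a).ne' (orderOf_pos b).ne' ha h2
  exact hno g hg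

theorem inf_centralizer_eq_bot {G : Type*} [Group G] [Finite G] {p q : ℕ} (hp : p.Prime)
    (hq : q.Prime) (hpq : p ≠ q) (hno : ∀ g : G, orderOf g ≠ p * q) {A B : Subgroup G}
    (hA : IsPGroup p A) (hB : IsPGroup q B) : ∀ a ∈ A, a ≠ 1 → B ⊓ centralizer {a} = ⊥ := by
  intro a ha ha1
  have : Fact p.Prime := ⟨hp⟩
  have ha' : (⟨a, ha⟩ : A) ≠ 1 := fun h0 => ha1 (congrArg Subtype.val h0)
  have h2 : p ∣ orderOf a := by
    have := hA.dvd_orderOf ha'
    rwa [← Subgroup.orderOf_coe] at this
  rw [eq_bot_iff]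
  intro b hbc
  obtain ⟨hb, hc⟩ := mem_inf.mp hbc
  rw [mem_centralizer_singleton_iff] at hc
  exact mem_bot.mpr (eq_one_of_commute hp hq hpq hno (a := a) (b := b) hc.symm h2 hB hb)

/-- A `p`-group of exponent `p` acting fixed-point-freely on a nontrivial abelian group has order
dividing `p`. -/
theorem card_dvd_of_fpf {G : Type*} [Group G] [Finite G] {p : ℕ} (hp : p.Prime) {A V : Subgroup G}
    (hVc : IsMulCommutative V) (hV : V ≠ ⊥) (hAV : A ≤ normalizer (V : Set G))
    (hfpf : ∀ a ∈ A, a ≠ 1 → V ⊓ centralizer {a} = ⊥) (hexp : ∀ a ∈ A, a ^ p = 1) :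
    Nat.card A ∣ p := by
  have : Fact p.Prime := ⟨hp⟩
  have hA : IsPGroup p A := fun a => ⟨1, by
    rw [pow_one]; exact Subtype.ext (hexp a a.2)⟩
  by_cases hA1 : A = ⊥
  · rw [hA1, card_bot]; exact one_dvd _
  have : Nontrivial A := (nontrivial_iff_ne_bot A).2 hA1
  have hc := hA.center_nontrivial
  obtain ⟨z, hz⟩ := exists_ne (1 : center A)
  have hz1 : ((z : A) : G) ≠ 1 := by
    intro h0
    exact hz (Subtype.ext (Subtype.ext h0))
  have hzc : ∀ x : A, x * (z : A) = (z : A) * x := fun x => mem_center_iff.mp z.2 x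
  have key : ∀ x ∈ A, x ∈ zpowers ((z : A) : G) := by
    intro x hx
    set B : Subgroup G := Subgroup.closure {x, ((z : A) : G)} with hBdef
    have hxz : x * ((z : A) : G) = ((z : A) : G) * x := congrArg Subtype.val (hzc ⟨x, hx⟩)
    have hBc : IsMulCommutative B := by
      apply Subgroup.isMulCommutative_closure
      rintro a (rfl | rfl) b (rfl | rfl)
      · rfl
      · exact hxz
      · exact hxz.symm
      · rfl
    have hBA : B ≤ A := by
      rw [hBdef, closure_le]
      rintro a (rfl | rfl)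
      · exact hx
      · exact (z : A).2
    have hBcyc : IsCyclic B := Cfsg.Agent.S0041.result B V hV (hBA.trans hAV)
      (fun a ha => hfpf a (hBA ha)) (Or.inl hBc)
    obtain ⟨g, hg⟩ := hBcyc.exists_generator
    have hgp : g ^ p = 1 := Subtype.ext (hexp g (hBA g.2))
    have hcardB : Nat.card B ∣ p := by
      rw [← orderOf_eq_card_of_forall_mem_zpowers hg]
      exact orderOf_dvd_of_pow_eq_one hgp
    have hzB : zpowers ((z : A) : G) ≤ B := by
      rw [zpowers_le]
      exact subset_closure (Set.mem_insert_of_mem _ rfl)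
    have hoz : Nat.card (zpowers ((z : A) : G)) = p := by
      rw [Nat.card_zpowers]
      exact orderOf_eq_prime (hexp _ (z : A).2) hz1
    have heq : zpowers ((z : A) : G) = B := by
      apply Subgroup.eq_of_le_of_card_ge hzB
      rw [hoz]
      exact Nat.le_of_dvd hp.pos hcardB
    rw [heq]
    exact subset_closure (Set.mem_insert _ _)
  have hle : A ≤ zpowers ((z : A) : G) := key
  have := Subgroup.card_dvd_of_le hle
  rw [Nat.card_zpowers] at this
  exact this.trans (orderOf_dvd_of_pow_eq_one (hexp _ (z : A).2))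

/-- The order of a finite group all of whose prime divisors lie in `{p, q}`. -/
theorem exists_card_eq {G : Type*} [Group G] [Finite G] {p q : ℕ} (hpq : p ≠ q) (h : ∀ r : ℕ, r.Prime → r ∣ Nat.card G → r = p ∨ r = q) :
    ∃ a b : ℕ, Nat.card G = p ^ a * q ^ b := by
  refine ⟨(Nat.card G).factorization p, (Nat.card G).factorization q, ?_⟩
  have hne : Nat.card G ≠ 0 := Nat.card_pos.ne'
  conv_lhs => rw [← Nat.prod_factorization_pow_eq_self hne]
  have hsub : (Nat.card G).factorization.support ⊆ {p, q} := by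
    intro r hr
    rw [Nat.support_factorization, Nat.mem_primeFactors] at hr
    rw [Finset.mem_insert, Finset.mem_singleton]
    exact h r hr.1 hr.2.1
  rw [Finsupp.prod_of_support_subset _ hsub _ (by simp)]
  rw [Finset.prod_pair hpq]

theorem isSolvable_of_two_primes {G : Type*} [Group G] [Finite G] {p q : ℕ} (hp : p.Prime)
    (hq : q.Prime) (hpq : p ≠ q) (h : ∀ r : ℕ, r.Prime → r ∣ Nat.card G → r = p ∨ r = q) :
    Group.IsSolvable G := by
  obtain ⟨a, b, hab⟩ := exists_card_eq hpq h
  exact Cfsg.Agent.S0144.result p q a b hp hq hab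

end Cfsg.Agent.H497
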