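import Mathlib

/-!
# No subgroup of `GL_2(q)`, `q ≥ 5` odd, contains a Singer cycle, a full set of homologies and no transvection (helper497)
-/

set_option autoImplicit false

namespace Cfsg.Agent.H497.HCTwoA

open Matrix

variable {F : Type*} [Field F]

/-- two independent vectors span -/
theorem exists_coord {v w : Fin 2 → F} (h : v 0 * w 1 - v 1 * w 0 ≠ 0) (x : Fin 2 → F) :
    ∃ α β : F, x = α • v + β • w := by
  refine ⟨(x 0 * w 1 - x 1 * w 0) / (v 0 * w 1 - v 1 * w 0), (v 0 * x 1 - v 1 * x 0) / (v 0 * w 1 - v 1 * w 0), ?_⟩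
  funext i
  fin_cases i
  · change x 0 = (x 0 * w 1 - x 1 * w 0) / (v 0 * w 1 - v 1 * w 0) * v 0 +
      (v 0 * x 1 - v 1 * x 0) / (v 0 * w 1 - v 1 * w 0) * w 0
    rw [div_mul_eq_mul_div, div_mul_eq_mul_div, ← add_div, eq_div_iff h]
    ring
  · change x 1 = (x 0 * w 1 - x 1 * w 0) / (v 0 * w 1 - v 1 * w 0) * v 1 +
      (v 0 * x 1 - v 1 * x 0) / (v 0 * w 1 - v 1 * w 0) * w 1
    rw [div_mul_eq_mul_div, div_mul_eq_mul_div, ← add_div, eq_div_iff h]
    ring

/-- two vectors with different eigenvalues are independent -/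
theorem indep {s : Matrix (Fin 2) (Fin 2) F} (h2 : (2 : F) ≠ 0) {v w : Fin 2 → F} (hv : v ≠ 0) (hw : w ≠ 0)
    (hsv : s *ᵥ v = v) (hsw : s *ᵥ w = -w) : v 0 * w 1 - v 1 * w 0 ≠ 0 := by
  intro h0
  -- `w` is a multiple of `v`
  obtain ⟨r, hr⟩ : ∃ r : F, w = r • v := by
    by_cases h1 : v 0 = 0
    · have h3 : v 1 ≠ 0 := by
        intro h3
        apply hv
        funext i
        fin_cases i
        exacts [h1, h3]
      rw [h1, zero_mul, zero_sub, neg_eq_zero] at h0
      have h4 : w 0 = 0 := (mul_eq_zero.1 h0).resolve_left h3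
      refine ⟨w 1 / v 1, ?_⟩
      funext i
      fin_cases i
      · change w 0 = w 1 / v 1 * v 0
        rw [h1, h4, mul_zero]
      · change w 1 = w 1 / v 1 * v 1
        field_simp
    · refine ⟨w 0 / v 0, ?_⟩
      funext i
      fin_cases i
      · change w 0 = w 0 / v 0 * v 0
        field_simp
      · change w 1 = w 0 / v 0 * v 1
        field_simp
        linear_combination h0
  apply hw
  have h5 : w = -w := by
    conv_lhs => rw [hr, ← hsv, ← mulVec_smul, ← hr, hsw]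
  have h6 : (2 : F) • w = 0 := by
    rw [two_smul]
    nth_rewrite 2 [h5]
    exact add_neg_cancel w
  exact (smul_eq_zero.1 h6).resolve_left h2

theorem det_eq {d : Matrix (Fin 2) (Fin 2) F} {v w : Fin 2 → F} (h : v 0 * w 1 - v 1 * w 0 ≠ 0) {a : F}
    (hv : d *ᵥ v = v) (hw : d *ᵥ w = a • w) : d.det = a := by
  have e0 : d 0 0 * v 0 + d 0 1 * v 1 = v 0 := by
    have := congrFun hv 0
    simpa [mulVec, dotProduct, Fin.sum_univ_two] using this
  have e1 : d 1 0 * v 0 + d 1 1 * v 1 = v 1 := by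
    have := congrFun hv 1
    simpa [mulVec, dotProduct, Fin.sum_univ_two] using this
  have e2 : d 0 0 * w 0 + d 0 1 * w 1 = a * w 0 := by
    have := congrFun hw 0
    simpa [mulVec, dotProduct, Fin.sum_univ_two] using this
  have e3 : d 1 0 * w 0 + d 1 1 * w 1 = a * w 1 := by
    have := congrFun hw 1
    simpa [mulVec, dotProduct, Fin.sum_univ_two] using this
  rw [det_fin_two]
  apply mul_right_cancel₀ h
  calc (d 0 0 * d 1 1 - d 0 1 * d 1 0) * (v 0 * w 1 - v 1 * w 0)
      = (d 0 0 * v 0 + d 0 1 * v 1) * (d 1 0 * w 0 + d 1 1 * w 1) -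
        (d 1 0 * v 0 + d 1 1 * v 1) * (d 0 0 * w 0 + d 0 1 * w 1) := by ring
    _ = v 0 * (a * w 1) - v 1 * (a * w 0) := by rw [e0, e1, e2, e3]
    _ = a * (v 0 * w 1 - v 1 * w 0) := by ring

/-- the action -/
def ac (x : GL (Fin 2) F) (v : Fin 2 → F) : Fin 2 → F := (x : Matrix (Fin 2) (Fin 2) F) *ᵥ v

theorem ac_mul (x y : GL (Fin 2) F) (v : Fin 2 → F) : ac (x * y) v = ac x (ac y v) := by
  unfold ac
  rw [mulVec_mulVec, Units.val_mul]

theorem ac_one (v : Fin 2 → F) : ac (1 : GL (Fin 2) F) v = v := by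
  unfold ac
  rw [Units.val_one, one_mulVec]

theorem ac_inv (x : GL (Fin 2) F) (v : Fin 2 → F) : ac x⁻¹ (ac x v) = v := by
  rw [← ac_mul, inv_mul_cancel, ac_one]

theorem ac_inv' (x : GL (Fin 2) F) (v : Fin 2 → F) : ac x (ac x⁻¹ v) = v := by
  rw [← ac_mul, mul_inv_cancel, ac_one]

theorem ac_add (x : GL (Fin 2) F) (v w : Fin 2 → F) : ac x (v + w) = ac x v + ac x w := mulVec_add _ _ _

theorem ac_smul (x : GL (Fin 2) F) (c : F) (v : Fin 2 → F) : ac x (c • v) = c • ac x v := mulVec_smul _ _ _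

theorem ac_neg (x : GL (Fin 2) F) (v : Fin 2 → F) : ac x (-v) = -ac x v := mulVec_neg _ _

theorem neg_ac (x : GL (Fin 2) F) (v : Fin 2 → F) : ac (-x) v = -ac x v := by
  unfold ac
  rw [Units.val_neg, neg_mulVec]

theorem det_neg' (x : GL (Fin 2) F) :
    Matrix.GeneralLinearGroup.det (-x) = Matrix.GeneralLinearGroup.det x := by
  apply Units.ext
  change (-(x : Matrix (Fin 2) (Fin 2) F)).det = (x : Matrix (Fin 2) (Fin 2) F).det
  rw [det_neg]
  simp

theorem gl_two_false [Fintype F] (h2 : (2 : F) ≠ 0) (H : Subgroup (GL (Fin 2) F)) (hneg : (-1 : GL (Fin 2) F) ∈ H)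
    (C : Set (GL (Fin 2) F)) (hC : C ⊆ H) (hCc : ∀ a ∈ C, ∀ b ∈ C, a * b = b * a)
    (htr : ∀ v w : Fin 2 → F, v ≠ 0 → w ≠ 0 → ∃ c ∈ C, ac c v = w)
    (huni : ∀ x ∈ H, ∀ v : Fin 2 → F, v ≠ 0 → ac x v = v → Matrix.GeneralLinearGroup.det x = 1 → x = 1)
    (hsurj : ∀ v : Fin 2 → F, v ≠ 0 → ∀ a : Fˣ, ∃ x ∈ H, ac x v = v ∧ Matrix.GeneralLinearGroup.det x = a) :
    Fintype.card F ≤ 3 := by
  have huniq : ∀ x ∈ H, ∀ y ∈ H, ∀ v : Fin 2 → F, v ≠ 0 → ac x v = v → ac y v = v →
      Matrix.GeneralLinearGroup.det x = Matrix.GeneralLinearGroup.det y → x = y := by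
    intro x hx y hy v hv hxv hyv hd
    have h1 : ac y⁻¹ v = v := by
      conv_lhs => rw [← hyv]
      exact ac_inv y v
    have h3 := huni (x * y⁻¹) (mul_mem hx (inv_mem hy)) v hv (by rw [ac_mul, h1, hxv])
      (by rw [map_mul, map_inv, hd, mul_inv_cancel])
    exact mul_inv_eq_one.1 h3
  obtain ⟨v, hv⟩ : ∃ v : Fin 2 → F, v ≠ 0 := ⟨![1, 0], fun h => one_ne_zero (congrFun h 0)⟩
  obtain ⟨s, hs, hsv, hsd⟩ := hsurj v hv (-1)
  have hss : s * s = 1 := huni _ (mul_mem hs hs) v hv (by rw [ac_mul, hsv, hsv]) (by rw [map_mul, hsd]; norm_num)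
  have hs1 : s ≠ 1 := by
    rintro rfl
    rw [map_one] at hsd
    have h3 := congrArg Units.val hsd
    rw [Units.val_one, Units.val_neg, Units.val_one] at h3
    apply h2
    linear_combination h3
  obtain ⟨y, hy⟩ : ∃ y, ac s y ≠ y := by
    by_contra hcon
    push Not at hcon
    apply hs1
    apply Units.ext
    apply Matrix.ext_of_mulVec_single
    intro i
    have := hcon (Pi.single i 1)
    unfold ac at this
    rw [this, Units.val_one, one_mulVec]
  obtain ⟨w, hw0, hsw⟩ : ∃ w : Fin 2 → F, w ≠ 0 ∧ ac s w = -w := by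
    refine ⟨ac s y - y, sub_ne_zero.2 hy, ?_⟩
    have h3 : ac s (ac s y - y) = ac s (ac s y) - ac s y := mulVec_sub _ _ _
    rw [h3, ← ac_mul, hss, ac_one]
    abel
  have hind := indep h2 hv hw0 hsv hsw
  -- eigenspaces of `s`
  have heig : ∀ x, ac s x = -x → ∃ μ : F, x = μ • w := by
    intro x hx
    obtain ⟨α, β, rfl⟩ := exists_coord hind x
    rw [ac_add, ac_smul, ac_smul, hsv, hsw] at hx
    have h3 : (2 : F) • (α • v) = 0 := by
      have h4 : α • v + β • -w + (α • v + β • w) = 0 := by rw [hx]; exact neg_add_cancel _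
      rw [two_smul, ← h4, smul_neg]
      abel
    have h5 := (smul_eq_zero.1 h3).resolve_left h2
    exact ⟨β, by rw [h5, zero_add]⟩
  have heig' : ∀ x, ac s x = x → ∃ μ : F, x = μ • v := by
    intro x hx
    obtain ⟨α, β, rfl⟩ := exists_coord hind x
    rw [ac_add, ac_smul, ac_smul, hsv, hsw] at hx
    have h3 : (2 : F) • (β • w) = 0 := by
      have h4 : (α • v + β • w) - (α • v + β • -w) = 0 := by rw [hx]; exact sub_self _
      rw [two_smul, ← h4, smul_neg]
      abel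
    have h5 := (smul_eq_zero.1 h3).resolve_left h2
    exact ⟨α, by rw [h5, add_zero]⟩
  obtain ⟨c, hc, hcv⟩ := htr v w hv hw0
  -- `c` anticommutes with `s`
  have hanti : c * s * c⁻¹ = -s := by
    refine huniq _ (mul_mem (mul_mem (hC hc) hs) (inv_mem (hC hc))) _ ?_ w hw0 ?_ ?_ ?_
    · rw [← neg_one_mul]
      exact mul_mem hneg hs
    · rw [ac_mul, ac_mul, ← hcv, ac_inv, hsv]
    · rw [neg_ac, hsw, neg_neg]
    · rw [map_mul, map_mul, map_inv, det_neg', mul_comm (Matrix.GeneralLinearGroup.det c), mul_assoc, mul_inv_cancel,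
        mul_one]
  obtain ⟨κ, hκ⟩ := heig' (ac c w) (by
    have h3 : s * c = -(c * s) := by
      have h4 := hanti
      rw [mul_inv_eq_iff_eq_mul] at h4
      rw [h4, neg_mul, neg_neg]
    rw [← ac_mul, h3, neg_ac, ac_mul, hsw, ac_neg, neg_neg])
  have hκ0 : κ ≠ 0 := by
    rintro rfl
    rw [zero_smul] at hκ
    apply hw0
    have h3 := congrArg (ac c⁻¹) hκ
    rw [ac_inv] at h3
    rw [h3]
    exact mulVec_zero _
  have key : ∀ a : Fˣ, a ^ 2 = 1 := by
    intro a
    obtain ⟨d, hd, hdv, hdd⟩ := hsurj v hv a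
    have hds : d * s = s * d := by
      refine huniq _ (mul_mem hd hs) _ (mul_mem hs hd) v hv ?_ ?_ ?_
      · rw [ac_mul, hsv, hdv]
      · rw [ac_mul, hdv, hsv]
      · rw [map_mul, map_mul, mul_comm]
    obtain ⟨a', ha'⟩ := heig (ac d w) (by rw [← ac_mul, ← hds, ac_mul, hsw, ac_neg])
    have haa : a' = a := by
      rw [← det_eq (d := (d : Matrix (Fin 2) (Fin 2) F)) hind hdv ha']
      exact congrArg Units.val hdd
    rw [haa] at ha'
    have hu0 : v + w ≠ 0 := by
      intro h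
      have h3 : ac s (v + w) = 0 := by rw [h]; exact mulVec_zero _
      rw [ac_add, hsv, hsw] at h3
      have h4 : (2 : F) • v = 0 := by
        rw [two_smul]
        calc v + v = (v + w) + (v + -w) := by abel
          _ = 0 := by rw [h, h3, add_zero]
      exact hv ((smul_eq_zero.1 h4).resolve_left h2)
    have hu0' : ac d (v + w) ≠ 0 := by
      intro h
      apply hu0
      rw [← ac_inv d (v + w), h]
      exact mulVec_zero _
    obtain ⟨c₁, hc₁, hcu⟩ := htr v (v + w) hv hu0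
    obtain ⟨c₂, hc₂, hcu'⟩ := htr v (ac d (v + w)) hv hu0'
    have e1 : d * (c₁ * s * c₁⁻¹) * d⁻¹ = c₂ * s * c₂⁻¹ := by
      refine huniq _ (mul_mem (mul_mem hd (mul_mem (mul_mem (hC hc₁) hs) (inv_mem (hC hc₁)))) (inv_mem hd)) _
        (mul_mem (mul_mem (hC hc₂) hs) (inv_mem (hC hc₂))) _ hu0' ?_ ?_ ?_
      · rw [ac_mul, ac_mul, ac_inv, ac_mul, ac_mul, ← hcu, ac_inv, hsv]
      · rw [ac_mul, ac_mul, ← hcu', ac_inv, hsv]
      · simp only [map_mul, map_inv]
        rw [mul_comm (Matrix.GeneralLinearGroup.det d), mul_assoc, mul_inv_cancel, mul_one,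
          mul_comm (Matrix.GeneralLinearGroup.det c₁), mul_assoc, mul_inv_cancel, mul_one,
          mul_comm (Matrix.GeneralLinearGroup.det c₂), mul_assoc, mul_inv_cancel, mul_one]
    -- apply to `c u'`
    have e2 : ac (c₂ * s * c₂⁻¹) (ac c (ac d (v + w))) = -ac c (ac d (v + w)) := by
      have h3 : ac c (ac d (v + w)) = ac c₂ w := by
        rw [← hcu', ← ac_mul, hCc c hc c₂ hc₂, ac_mul, hcv]
      rw [h3, ac_mul, ac_mul, ac_inv, hsw, ac_neg]
    rw [← e1] at e2
    -- so `c₁⁻¹ d⁻¹ c u'` is in the `-1`-eigenspace of `s`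
    obtain ⟨μ, hμ⟩ := heig (ac c₁⁻¹ (ac d⁻¹ (ac c (ac d (v + w))))) (by
      have h3 := congrArg (fun x => ac c₁⁻¹ (ac d⁻¹ x)) e2
      simp only [ac_mul, ac_neg, ac_inv] at h3
      exact h3)
    have e3 : ac c (ac d (v + w)) = μ • ac d (ac c₁ w) := by
      rw [← ac_smul, ← ac_smul, ← hμ, ac_inv', ac_inv']
    have e4 : ac c₁ w = ac c (v + w) := by
      rw [← hcu, ← hcv, ← ac_mul, ← ac_mul, hCc c₁ hc₁ c hc]
    rw [e4, ac_add c, hcv, hκ, ac_add, hdv, ha', ac_add, ac_smul, hcv, hκ, ac_add, ac_smul, ha', hdv] at e3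
    -- `w + a κ v = μ (a w + κ v)`
    have f1 : ((a : F) * κ - μ * κ) • v + (1 - μ * a) • w = 0 := by
      have h3 : w + (a : F) • κ • v - μ • ((a : F) • w + κ • v) = 0 := by rw [e3, sub_self]
      rw [← h3]
      funext i
      simp only [Pi.add_apply, Pi.sub_apply, Pi.smul_apply, smul_eq_mul]
      ring
    have f2 : (a : F) * κ - μ * κ = 0 ∧ 1 - μ * a = 0 := by
      have h3 := congrArg (ac s) f1
      rw [ac_add, ac_smul, ac_smul, hsv, hsw] at h3
      have h30 : ac s 0 = 0 := mulVec_zero _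
      rw [h30] at h3
      constructor
      · have h4 : (2 : F) • (((a : F) * κ - μ * κ) • v) = 0 := by
          calc (2 : F) • (((a : F) * κ - μ * κ) • v) = (((a : F) * κ - μ * κ) • v + (1 - μ * a) • w) +
              (((a : F) * κ - μ * κ) • v + (1 - μ * a) • -w) := by rw [two_smul, smul_neg]; abel
            _ = 0 := by rw [f1, h3, add_zero]
        exact (smul_eq_zero.1 ((smul_eq_zero.1 h4).resolve_left h2)).resolve_right hv
      · have h4 : (2 : F) • ((1 - μ * a) • w) = 0 := by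
          calc (2 : F) • ((1 - μ * a) • w) = (((a : F) * κ - μ * κ) • v + (1 - μ * a) • w) -
              (((a : F) * κ - μ * κ) • v + (1 - μ * a) • -w) := by rw [two_smul, smul_neg]; abel
            _ = 0 := by rw [f1, h3, sub_zero]
        exact (smul_eq_zero.1 ((smul_eq_zero.1 h4).resolve_left h2)).resolve_right hw0
    have f3 : μ = a := by
      have h4 : ((a : F) - μ) * κ = 0 := by linear_combination f2.1
      exact (sub_eq_zero.1 ((mul_eq_zero.1 h4).resolve_right hκ0)).symm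
    apply Units.ext
    rw [Units.val_pow_eq_pow_val, Units.val_one]
    have := f2.2
    rw [f3] at this
    linear_combination -this
  have hcyc : Nat.card Fˣ ≤ 2 := by
    obtain ⟨g, hg⟩ := IsCyclic.exists_generator (α := Fˣ)
    rw [← orderOf_eq_card_of_forall_mem_zpowers hg]
    exact Nat.le_of_dvd (by norm_num) (orderOf_dvd_of_pow_eq_one (key g))
  rw [Nat.card_units, Nat.card_eq_fintype_card] at hcyc
  omega

end Cfsg.Agent.H497.HCTwoA
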