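import Mathlib
import Cfsg.Agent.LieClassical.SLTwoUnipotent
import Cfsg.Agent.ClassicalGeometry.PSL2Basic
import Cfsg.Agent.H356.CommSup
import Cfsg.Agent.Walter.FieldPSL
import Cfsg.Agent.H864.FpfPSL
import Cfsg.Agent.H497.HCTwoA

/-!
# Subgroups of `SL_2(q)` of index prime to `p` (helper497)
-/

set_option autoImplicit false

namespace Cfsg.Agent.H497.HCTwoB

open Matrix Subgroup
open scoped Pointwise
open Cfsg.Agent.LieClassical.SLTwoUnipotent
open Cfsg.Agent.ClassicalGeometry.AutPSL.Root Cfsg.Agent.ClassicalGeometry.AutPSL.Auto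

theorem exists_conj_of_index {G : Type*} [Group G] [Finite G] {K R : Subgroup G} {r : ℕ} [Fact r.Prime]
    (hi : ¬ r ∣ K.index) (hR : IsPGroup r R) : ∃ g : G, ∀ x ∈ R, g * x * g⁻¹ ∈ K := by
  obtain ⟨P⟩ : Nonempty (Sylow r ↥K) := inferInstance
  let P' : Subgroup G := (P : Subgroup ↥K).map K.subtype
  have hP' : IsPGroup r P' := P.isPGroup'.map _
  have hidx : ¬ r ∣ P'.index := by
    have h1 : P'.index = (P : Subgroup ↥K).index * K.index := Subgroup.index_map_subtype (P : Subgroup ↥K)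
    rw [h1, (Fact.out : r.Prime).dvd_mul]
    rintro (h2 | h2)
    · exact P.not_dvd_index h2
    · exact hi h2
  obtain ⟨Q, hQ⟩ := hR.exists_le_sylow
  let P'' : Sylow r G := hP'.toSylow hidx
  obtain ⟨g, hg⟩ := MulAction.exists_smul_eq G Q P''
  refine ⟨g, fun x hx => ?_⟩
  have h3 : g * x * g⁻¹ ∈ ((g • Q : Sylow r G) : Subgroup G) := ⟨x, hQ hx, rfl⟩
  rw [hg] at h3
  exact (Subgroup.map_subtype_le (P : Subgroup ↥K)) h3

variable {F : Type*} [Field F]

/-- a subgroup of index prime to `p` fixes a line -/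
theorem exists_eig [Fintype F] (p : ℕ) [Fact p.Prime] [CharP F p] {K : Subgroup (SpecialLinearGroup (Fin 2) F)}
    (hi : ¬ p ∣ K.index) (hne : K ≠ ⊤) :
    ∃ v : Fin 2 → F, v ≠ 0 ∧ ∀ x ∈ K, ∃ l : F, (x : Matrix (Fin 2) (Fin 2) F) *ᵥ v = l • v := by
  obtain ⟨P⟩ : Nonempty (Sylow p ↥K) := inferInstance
  let P' : Subgroup (SpecialLinearGroup (Fin 2) F) := (P : Subgroup ↥K).map K.subtype
  have hP' : IsPGroup p P' := P.isPGroup'.map _
  have hidx : ¬ p ∣ P'.index := by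
    have h1 : P'.index = (P : Subgroup ↥K).index * K.index := Subgroup.index_map_subtype (P : Subgroup ↥K)
    rw [h1, (Fact.out : p.Prime).dvd_mul]
    rintro (h2 | h2)
    · exact P.not_dvd_index h2
    · exact hi h2
  let Q : Sylow p (SpecialLinearGroup (Fin 2) F) := hP'.toSylow hidx
  have hQK : (Q : Subgroup (SpecialLinearGroup (Fin 2) F)) ≤ K := Subgroup.map_subtype_le (P : Subgroup ↥K)
  obtain ⟨h, hh⟩ := exists_smul_upperUnipSylowSL_eq p Q
  have key : ∀ x ∈ K, (h⁻¹ * x * h) 1 0 = 0 := by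
    intro x hx
    rw [← smul_upperUnipSylowSL_eq_self_iff p]
    have h1 : x • Q = Q := by
      by_contra hne'
      have h2 := sylow_sup_eq_top p (x • Q) Q hne'
      apply hne
      rw [eq_top_iff, ← h2, sup_le_iff]
      refine ⟨?_, hQK⟩
      rintro _ ⟨y, hy, rfl⟩
      exact mul_mem (mul_mem hx (hQK hy)) (inv_mem hx)
    rw [← hh] at h1
    rw [mul_smul, mul_smul, h1, ← mul_smul, inv_mul_cancel, one_smul]
  refine ⟨(h : Matrix (Fin 2) (Fin 2) F) *ᵥ ![1, 0], ?_, fun x hx => ?_⟩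
  · intro h0
    have h1 : ((h⁻¹ : SpecialLinearGroup (Fin 2) F) : Matrix (Fin 2) (Fin 2) F) *ᵥ
        ((h : Matrix (Fin 2) (Fin 2) F) *ᵥ ![1, 0]) = ![1, 0] := by
      rw [mulVec_mulVec, ← Matrix.SpecialLinearGroup.coe_mul, inv_mul_cancel]
      exact one_mulVec _
    rw [h0, mulVec_zero] at h1
    exact zero_ne_one (congrFun h1 0)
  · refine ⟨(h⁻¹ * x * h) 0 0, ?_⟩
    have h1 : ((h⁻¹ * x * h : SpecialLinearGroup (Fin 2) F) : Matrix (Fin 2) (Fin 2) F) *ᵥ ![1, 0] =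
        (h⁻¹ * x * h) 0 0 • ![1, 0] := by
      funext i
      have hk := key x hx
      fin_cases i
      · simp [mulVec, dotProduct, Fin.sum_univ_two]
      · simpa [mulVec, dotProduct, Fin.sum_univ_two] using hk
    rw [← mulVec_smul, ← h1, mulVec_mulVec, mulVec_mulVec, ← Matrix.SpecialLinearGroup.coe_mul, ← Matrix.SpecialLinearGroup.coe_mul]
    have e : h * (h⁻¹ * x * h) = x * h := by rw [mul_assoc, mul_inv_cancel_left]
    rw [e]

/-- a matrix of determinant one fixing a vector is unipotent -/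
theorem sq_zero {x : Matrix (Fin 2) (Fin 2) F} (hd : x.det = 1) {v : Fin 2 → F} (hv : v ≠ 0) (h : x *ᵥ v = v) :
    (x - 1) * (x - 1) = 0 := by
  have h0 : (x - 1).det = 0 := by
    rw [← Matrix.exists_mulVec_eq_zero_iff]
    exact ⟨v, hv, by rw [sub_mulVec, h, one_mulVec, sub_self]⟩
  rw [det_fin_two] at h0 hd
  simp only [Matrix.sub_apply, one_apply_eq, one_apply_ne (show (0 : Fin 2) ≠ 1 by decide),
    one_apply_ne (show (1 : Fin 2) ≠ 0 by decide), sub_zero] at h0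
  have ht : x 0 0 + x 1 1 = 2 := by linear_combination hd - h0
  ext i j
  rw [mul_apply, Fin.sum_univ_two]
  fin_cases i <;> fin_cases j
  · simp
    linear_combination x 0 0 * ht - hd
  · simp
    linear_combination x 0 1 * ht
  · simp
    linear_combination x 1 0 * ht
  · simp
    linear_combination x 1 1 * ht - hd

theorem sq_eq_one [CharP F 2] {x : SpecialLinearGroup (Fin 2) F} {v : Fin 2 → F} (hv : v ≠ 0)
    (h : (x : Matrix (Fin 2) (Fin 2) F) *ᵥ v = v) : x * x = 1 := by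
  apply Subtype.ext
  have h1 := sq_zero x.2 hv h
  have h2 : (x : Matrix (Fin 2) (Fin 2) F) * x = 1 + ((x : Matrix (Fin 2) (Fin 2) F) - 1) + ((x : Matrix (Fin 2) (Fin 2) F) - 1) +
      ((x : Matrix (Fin 2) (Fin 2) F) - 1) * ((x : Matrix (Fin 2) (Fin 2) F) - 1) := by
    noncomm_ring
  change (x : Matrix (Fin 2) (Fin 2) F) * x = 1
  rw [h2, h1, add_zero, add_assoc, CharTwo.add_self_eq_zero, add_zero]

theorem mulVec_ne_zero (x : SpecialLinearGroup (Fin 2) F) {v : Fin 2 → F} (hv : v ≠ 0) :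
    (x : Matrix (Fin 2) (Fin 2) F) *ᵥ v ≠ 0 := by
  intro h0
  apply hv
  have h1 : ((x⁻¹ : SpecialLinearGroup (Fin 2) F) : Matrix (Fin 2) (Fin 2) F) *ᵥ
      ((x : Matrix (Fin 2) (Fin 2) F) *ᵥ v) = v := by
    rw [mulVec_mulVec, ← Matrix.SpecialLinearGroup.coe_mul, inv_mul_cancel]
    exact one_mulVec _
  rw [← h1, h0, mulVec_zero]

/-- anticommuting elements have no common eigenvector -/
theorem anti_false (h2 : (2 : F) ≠ 0) {x y : SpecialLinearGroup (Fin 2) F} {v : Fin 2 → F} {l m : F} (hv : v ≠ 0)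
    (e1 : x * y = -(y * x)) (hl : (x : Matrix (Fin 2) (Fin 2) F) *ᵥ v = l • v)
    (hm : (y : Matrix (Fin 2) (Fin 2) F) *ᵥ v = m • v) : False := by
  have e2 : ((x * y : SpecialLinearGroup (Fin 2) F) : Matrix (Fin 2) (Fin 2) F) *ᵥ v =
      ((-(y * x) : SpecialLinearGroup (Fin 2) F) : Matrix (Fin 2) (Fin 2) F) *ᵥ v := by rw [e1]
  rw [Matrix.SpecialLinearGroup.coe_mul, Matrix.SpecialLinearGroup.coe_neg, neg_mulVec, Matrix.SpecialLinearGroup.coe_mul,
    ← mulVec_mulVec, ← mulVec_mulVec, hm, mulVec_smul, hl, mulVec_smul, hm, smul_smul, smul_smul, mul_comm l m] at e2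
  have e3 : (2 * (m * l)) • v = 0 := by
    rw [two_mul, add_smul]
    nth_rewrite 1 [e2]
    exact neg_add_cancel _
  have e4 := (smul_eq_zero.1 e3).resolve_right hv
  rcases mul_eq_zero.1 ((mul_eq_zero.1 e4).resolve_left h2) with h0 | h0
  · exact mulVec_ne_zero y hv (by rw [hm, h0, zero_smul])
  · exact mulVec_ne_zero x hv (by rw [hl, h0, zero_smul])

/-- the elements of the quaternion group generated by `I` and `J` -/
def QE {G : Type*} [Group G] [HasDistribNeg G] (I J x : G) : Prop :=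
  x = 1 ∨ x = -1 ∨ x = I ∨ x = -I ∨ x = J ∨ x = -J ∨ x = I * J ∨ x = -(I * J)

theorem QE.mul {G : Type*} [Group G] [HasDistribNeg G] {I J : G} (hII : I * I = -1) (hJJ : J * J = -1)
    (hIJ : I * J = -(J * I)) {x y : G} (hx : QE I J x) (hy : QE I J y) : QE I J (x * y) := by
  have hJI : J * I = -(I * J) := by rw [hIJ, neg_neg]
  have c1 : I * (I * J) = -J := by
    rw [← mul_assoc, hII, neg_one_mul]
  have c3 : J * (I * J) = I := by
    rw [← mul_assoc, hJI, neg_mul, mul_assoc, hJJ, mul_neg, mul_one, neg_neg]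
  have c4 : I * (J * I) = J := by
    rw [hJI, mul_neg, c1, neg_neg]
  have c5 : I * (J * J) = -I := by
    rw [hJJ, mul_neg, mul_one]
  have c6 : I * (J * (I * J)) = -1 := by
    rw [c3, hII]
  unfold QE at *
  rcases hx with rfl | rfl | rfl | rfl | rfl | rfl | rfl | rfl <;>
    rcases hy with rfl | rfl | rfl | rfl | rfl | rfl | rfl | rfl <;>
    simp [mul_assoc, hII, hJJ, hJI, c1, c3]

theorem exists_quat {G : Type*} [Group G] [HasDistribNeg G] {I J : G} (hII : I * I = -1) (hJJ : J * J = -1)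
    (hIJ : I * J = -(J * I)) : ∃ R : Subgroup G, IsPGroup 2 R ∧ I ∈ R ∧ J ∈ R := by
  have h4 : ∀ y : G, QE I J y → y ^ 4 = 1 := by
    intro y hy
    have h5 : y * y = 1 ∨ y * y = -1 := by
      have hJI : J * I = -(I * J) := by rw [hIJ, neg_neg]
      have c3 : J * (I * J) = I := by
        rw [← mul_assoc, hJI, neg_mul, mul_assoc, hJJ, mul_neg, mul_one, neg_neg]
      rcases hy with rfl | rfl | rfl | rfl | rfl | rfl | rfl | rfl <;> simp [mul_assoc, hII, hJJ, c3]
    rw [show 4 = 2 * 2 by norm_num, pow_mul, pow_two, pow_two]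
    rcases h5 with h5 | h5 <;> rw [h5] <;> simp
  let R : Subgroup G :=
    { carrier := {x | QE I J x}
      one_mem' := Or.inl rfl
      mul_mem' := fun hx hy => QE.mul hII hJJ hIJ hx hy
      inv_mem' := by
        intro x hx
        have h1 : x⁻¹ = x * (x * x) := by
          rw [inv_eq_iff_mul_eq_one, ← h4 x hx]
          simp only [pow_succ, pow_zero, one_mul, mul_assoc]
        change QE I J x⁻¹
        rw [h1]
        exact QE.mul hII hJJ hIJ hx (QE.mul hII hJJ hIJ hx hx) }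
  refine ⟨R, ?_, Or.inr (Or.inr (Or.inl rfl)), Or.inr (Or.inr (Or.inr (Or.inr (Or.inl rfl))))⟩
  intro x
  refine ⟨2, Subtype.ext ?_⟩
  exact h4 x.1 x.2

/-- `K` of odd index, index prime to `p`, `p` odd -/
theorem odd_top [Fintype F] (p : ℕ) [Fact p.Prime] [CharP F p] (hp2 : (2 : F) ≠ 0)
    {K : Subgroup (SpecialLinearGroup (Fin 2) F)} (hi : ¬ p ∣ K.index) (hi2 : ¬ 2 ∣ K.index) : K = ⊤ := by
  by_contra hne
  obtain ⟨v, hv, hK⟩ := exists_eig p hi hne
  obtain ⟨a, b, hab⟩ := Cfsg.Agent.Walter.FieldPSL.exists_sq_add_sq F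
  have : Fact (Nat.Prime 2) := ⟨Nat.prime_two⟩
  set I : SpecialLinearGroup (Fin 2) F := Cfsg.Agent.Walter.FieldPSL.I with hI
  set J : SpecialLinearGroup (Fin 2) F := Cfsg.Agent.Walter.FieldPSL.J (a : F) b hab with hJ
  have hII : I * I = -1 := Cfsg.Agent.Walter.FieldPSL.I_sq
  have hJJ : J * J = -1 := Cfsg.Agent.Walter.FieldPSL.J_sq hab
  have hIJ : I * J = -(J * I) := Cfsg.Agent.Walter.FieldPSL.IJ hab
  -- the quaternion group
  obtain ⟨R, hR, hIR, hJR⟩ := exists_quat hII hJJ hIJ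
  obtain ⟨g, hg⟩ := exists_conj_of_index hi2 hR
  have hIK : g * I * g⁻¹ ∈ K := hg I hIR
  have hJK : g * J * g⁻¹ ∈ K := hg J hJR
  obtain ⟨l, hl⟩ := hK _ hIK
  obtain ⟨m, hm⟩ := hK _ hJK
  have e1 : (g * I * g⁻¹) * (g * J * g⁻¹) = -((g * J * g⁻¹) * (g * I * g⁻¹)) := by
    have : (g * I * g⁻¹) * (g * J * g⁻¹) = g * (I * J) * g⁻¹ := by group
    rw [this, hIJ, mul_neg, neg_mul]
    congr 1
    group
  exact anti_false hp2 hv e1 hl hm

/-- eigenvalues -/
theorem eig_pow {x : Matrix (Fin 2) (Fin 2) F} {v : Fin 2 → F} {l : F} (h : x *ᵥ v = l • v) (n : ℕ) :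
    (x ^ n) *ᵥ v = l ^ n • v := by
  induction n with
  | zero => simp
  | succ n ih => rw [pow_succ, ← mulVec_mulVec, h, mulVec_smul, ih, smul_smul, pow_succ, mul_comm]

theorem one_of_eig {y : SpecialLinearGroup (Fin 2) F} {v : Fin 2 → F} {l : F} (hv : v ≠ 0)
    (h : (y : Matrix (Fin 2) (Fin 2) F) *ᵥ v = l • v) {r m : ℕ} (hy : y ^ r = 1) (hl : l ^ m = 1) (hrm : Nat.Coprime r m) :
    l = 1 := by
  have h1 := eig_pow h r
  rw [← Matrix.SpecialLinearGroup.coe_pow, hy, Matrix.SpecialLinearGroup.coe_one, one_mulVec] at h1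
  have h2 : l ^ r = 1 := by
    have h3 : (l ^ r - 1) • v = 0 := by rw [sub_smul, one_smul, ← h1, sub_self]
    exact sub_eq_zero.1 ((smul_eq_zero.1 h3).resolve_right hv)
  have h3 := Nat.dvd_gcd (orderOf_dvd_of_pow_eq_one h2) (orderOf_dvd_of_pow_eq_one hl)
  rw [hrm] at h3
  exact orderOf_eq_one_iff.1 (Nat.dvd_one.1 h3)

theorem eq_one_of_sq {G : Type*} [Group G] {y : G} {r : ℕ} (hy : y ^ r = 1) (hr : Odd r) (h2 : y * y = 1) : y = 1 := by
  obtain ⟨k, rfl⟩ := hr
  rw [pow_succ, pow_mul, pow_two, h2, one_pow, one_mul] at hy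
  exact hy

/-- `q` even, an element of order dividing `q + 1` -/
theorem even_odd_false [Fintype F] [CharP F 2] {K : Subgroup (SpecialLinearGroup (Fin 2) F)} (hi : ¬ 2 ∣ K.index)
    (hne : K ≠ ⊤) {r : ℕ} [hr : Fact r.Prime] (hr2 : r ≠ 2) (hrq : r ∣ Fintype.card F + 1) (hri : ¬ r ∣ K.index)
    {y : SpecialLinearGroup (Fin 2) F} (hy : orderOf y = r) : False := by
  have : Fact (Nat.Prime 2) := ⟨Nat.prime_two⟩
  obtain ⟨v, hv, hK⟩ := exists_eig 2 hi hne
  have hR : IsPGroup r (zpowers y) := IsPGroup.of_card (n := 1) (by rw [Nat.card_zpowers, hy, pow_one])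
  obtain ⟨g, hg⟩ := exists_conj_of_index hri hR
  obtain ⟨l, hl⟩ := hK _ (hg y (mem_zpowers y))
  have hyr : (g * y * g⁻¹) ^ r = 1 := by
    rw [← hy, conj_pow, pow_orderOf_eq_one, mul_one, mul_inv_cancel]
  have hl0 : l ≠ 0 := by
    rintro rfl
    rw [zero_smul] at hl
    exact mulVec_ne_zero _ hv hl
  have hcop : Nat.Coprime r (Fintype.card F - 1) := by
    rw [Nat.Prime.coprime_iff_not_dvd hr.out]
    intro h1
    have h2 := Nat.dvd_sub hrq h1
    have h3 : Fintype.card F + 1 - (Fintype.card F - 1) = 2 := by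
      have : 1 < Fintype.card F := Fintype.one_lt_card
      omega
    rw [h3] at h2
    exact hr2 ((Nat.prime_dvd_prime_iff_eq hr.out Nat.prime_two).1 h2)
  have hl1 := one_of_eig hv hl hyr (FiniteField.pow_card_sub_one_eq_one l hl0) hcop
  rw [hl1, one_smul] at hl
  have h5 := eq_one_of_sq hyr (hr.out.odd_of_ne_two hr2) (sq_eq_one hv hl)
  have h6 : y = 1 := by
    have h7 : y = g⁻¹ * (g * y * g⁻¹) * g := by group
    rw [h7, h5]
    group
  rw [h6, orderOf_one] at hy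
  exact hr.out.one_lt.ne hy

theorem coe_fld_mulVec (τ : F ≃+* F) (k : SpecialLinearGroup (Fin 2) F) (v : Fin 2 → F) :
    ((fld τ k : SpecialLinearGroup (Fin 2) F) : Matrix (Fin 2) (Fin 2) F) *ᵥ (fun i => τ (v i)) =
      fun i => τ (((k : Matrix (Fin 2) (Fin 2) F) *ᵥ v) i) := by
  funext i
  change ∑ j, τ ((k : Matrix (Fin 2) (Fin 2) F) i j) * τ (v j) = τ (∑ j, (k : Matrix (Fin 2) (Fin 2) F) i j * v j)
  rw [map_sum]
  exact Finset.sum_congr rfl fun j _ => (map_mul τ _ _).symm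

/-- proportional vectors -/
theorem exists_smul_of_det {v w : Fin 2 → F} (hv : v ≠ 0) (h : v 0 * w 1 - v 1 * w 0 = 0) : ∃ m : F, w = m • v := by
  by_cases h1 : v 0 = 0
  · have h3 : v 1 ≠ 0 := by
      intro h3
      apply hv
      funext i
      fin_cases i
      exacts [h1, h3]
    rw [h1, zero_mul, zero_sub, neg_eq_zero] at h
    have h4 : w 0 = 0 := (mul_eq_zero.1 h).resolve_left h3
    refine ⟨w 1 / v 1, ?_⟩
    funext i
    fin_cases i
    · change w 0 = w 1 / v 1 * v 0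
      rw [h1, h4, mul_zero]
    · change w 1 = w 1 / v 1 * v 1
      field_simp
  · refine ⟨w 0 / v 0, ?_⟩
    funext i
    fin_cases i
    · change w 0 = w 0 / v 0 * v 0
      field_simp
    · change w 1 = w 0 / v 0 * v 1
      field_simp
      linear_combination h

/-- `q = q₀²` even, an element of order dividing `q₀ + 1` -/
theorem even_two_false [Fintype F] [CharP F 2] {τ : F ≃+* F} (hτ : τ ^ 2 = 1)
    {K : Subgroup (SpecialLinearGroup (Fin 2) F)} (hi : ¬ 2 ∣ K.index) (hne : K ≠ ⊤)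
    (hτK : ∀ k ∈ K, fld τ k ∈ K) {r : ℕ} [hr : Fact r.Prime] (hr2 : r ≠ 2) {q₀ : ℕ}
    (hq₀ : ∀ x : F, τ x = x → x ^ q₀ = x) (hq₀' : 1 ≤ q₀) (hrq : r ∣ q₀ + 1)
    {y : SpecialLinearGroup (Fin 2) F} (hy : orderOf y = r) (hyK : y ∈ K) (hyτ : fld τ y = y) : False := by
  have : Fact (Nat.Prime 2) := ⟨Nat.prime_two⟩
  obtain ⟨v, hv, hK⟩ := exists_eig 2 hi hne
  -- an involution
  have heven : 2 ∣ Fintype.card F := by
    obtain ⟨n, -, hn⟩ := FiniteField.card F 2
    rw [hn]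
    exact dvd_pow_self 2 n.2.ne'
  have hq1 : 1 < Fintype.card F := Fintype.one_lt_card
  have h2K : 2 ∣ Nat.card K := by
    have h1 : 2 ∣ Nat.card K * K.index := by
      rw [K.card_mul_index, Cfsg.Agent.ClassicalGeometry.PSL2Basic.card_SL2]
      exact dvd_mul_of_dvd_left heven _
    exact (Nat.prime_two.dvd_mul.1 h1).resolve_right hi
  obtain ⟨⟨k, hkK⟩, hk⟩ := exists_prime_orderOf_dvd_card' (G := K) 2 h2K
  have hk2 : orderOf k = 2 := (Subgroup.orderOf_mk k hkK).symm.trans hk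
  have hkk : k ^ 2 = 1 := orderOf_dvd_iff_pow_eq_one.1 (dvd_of_eq hk2)
  have hcop : Nat.Coprime 2 (Fintype.card F - 1) := by
    rw [Nat.coprime_two_left, Nat.odd_iff]
    omega
  have hfix : ∀ z ∈ K, z ^ 2 = 1 → (z : Matrix (Fin 2) (Fin 2) F) *ᵥ v = v := by
    intro z hz hz2
    obtain ⟨l, hl⟩ := hK z hz
    have hl0 : l ≠ 0 := by
      rintro rfl
      rw [zero_smul] at hl
      exact mulVec_ne_zero _ hv hl
    have := one_of_eig hv hl hz2 (FiniteField.pow_card_sub_one_eq_one l hl0) hcop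
    rw [hl, this, one_smul]
  have hkv := hfix k hkK hkk
  have hkv' := hfix (fld τ k) (hτK k hkK) (by rw [← map_pow, hkk, map_one])
  have hττ : fld τ (fld τ k) = k := by
    rw [← MulAut.mul_apply, ← map_mul, ← pow_two, hτ, map_one, MulAut.one_apply]
  have hkw : (k : Matrix (Fin 2) (Fin 2) F) *ᵥ (fun i => τ (v i)) = fun i => τ (v i) := by
    have h1 := coe_fld_mulVec τ (fld τ k) v
    rw [hττ, hkv'] at h1
    exact h1
  have hdep : v 0 * τ (v 1) - v 1 * τ (v 0) = 0 := by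
    by_contra hind
    have h1 : k = 1 := by
      apply Subtype.ext
      apply Matrix.ext_of_mulVec_single
      intro i
      obtain ⟨α, β, hαβ⟩ := HCTwoA.exists_coord (v := v) (w := fun i => τ (v i)) hind (Pi.single i 1)
      rw [hαβ, mulVec_add, mulVec_smul, mulVec_smul, hkv, hkw, Matrix.SpecialLinearGroup.coe_one, one_mulVec]
    rw [h1, orderOf_one] at hk2
    norm_num at hk2
  obtain ⟨m, hm⟩ := exists_smul_of_det (w := fun i => τ (v i)) hv hdep
  have hm0 : m ≠ 0 := by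
    rintro rfl
    rw [zero_smul] at hm
    apply hv
    funext i
    have := congrFun hm i
    exact (map_eq_zero_iff τ τ.injective).1 this
  obtain ⟨l, hl⟩ := hK y hyK
  have hl0 : l ≠ 0 := by
    rintro rfl
    rw [zero_smul] at hl
    exact mulVec_ne_zero _ hv hl
  have hτl : τ l = l := by
    have h1 := coe_fld_mulVec τ y v
    rw [hyτ, hl, hm, mulVec_smul, hl] at h1
    have h2 : (fun i => τ ((l • v) i)) = τ l • fun i => τ (v i) := by
      funext i
      exact map_mul τ _ _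
    rw [h2, hm, smul_smul, smul_smul] at h1
    have h3 : (m * l - τ l * m) • v = 0 := by rw [sub_smul, h1, sub_self]
    have h4 := (smul_eq_zero.1 h3).resolve_right hv
    have h5 : m * (l - τ l) = 0 := by linear_combination h4
    exact (sub_eq_zero.1 ((mul_eq_zero.1 h5).resolve_left hm0)).symm
  have hlq : l ^ (q₀ - 1) = 1 := by
    have h1 := hq₀ l hτl
    apply mul_right_cancel₀ hl0
    rw [← pow_succ, Nat.sub_add_cancel hq₀', h1, one_mul]
  have hcop' : Nat.Coprime r (q₀ - 1) := by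
    rw [Nat.Prime.coprime_iff_not_dvd hr.out]
    intro h1
    have h2 := Nat.dvd_sub hrq h1
    have h3 : q₀ + 1 - (q₀ - 1) = 2 := by omega
    rw [h3] at h2
    exact hr2 ((Nat.prime_dvd_prime_iff_eq hr.out Nat.prime_two).1 h2)
  have hyr : y ^ r = 1 := hy ▸ pow_orderOf_eq_one y
  have hl1 := one_of_eig hv hl hyr hlq hcop'
  rw [hl1, one_smul] at hl
  have h5 := eq_one_of_sq hyr (hr.out.odd_of_ne_two hr2) (sq_eq_one hv hl)
  rw [h5, orderOf_one] at hy
  exact hr.out.one_lt.ne hy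

/-- an element of `SL_2(q₀)` of order `r` -/
theorem exists_fixed [Fintype F] (τ : F ≃+* F) {r : ℕ} [hr : Fact r.Prime]
    (hrq : r ∣ Nat.card (Cfsg.Agent.Walter.FieldPSL.Fix τ) + 1) :
    ∃ y : SpecialLinearGroup (Fin 2) F, orderOf y = r ∧ fld τ y = y := by
  classical
  let F₀ := Cfsg.Agent.Walter.FieldPSL.Fix τ
  have : Fintype F₀ := Fintype.ofFinite _
  have h1 : r ∣ Nat.card (SpecialLinearGroup (Fin 2) F₀) := by
    rw [Cfsg.Agent.ClassicalGeometry.PSL2Basic.card_SL2]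
    refine dvd_mul_of_dvd_right ?_ _
    rw [Nat.card_eq_fintype_card] at hrq
    have : Fintype.card F₀ ^ 2 - 1 = (Fintype.card F₀ + 1) * (Fintype.card F₀ - 1) := by
      simpa using Nat.sq_sub_sq (Fintype.card F₀) 1
    rw [this]
    exact dvd_mul_of_dvd_left hrq _
  obtain ⟨y, hy⟩ := exists_prime_orderOf_dvd_card' (G := SpecialLinearGroup (Fin 2) F₀) r h1
  refine ⟨Cfsg.Agent.Walter.FieldPSL.incl F₀ y, ?_, ?_⟩
  · rw [← hy]
    exact orderOf_injective _ (Cfsg.Agent.Walter.FieldPSL.incl_injective F₀) y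
  · apply Subtype.ext
    ext i j
    exact Cfsg.Agent.Walter.FieldPSL.mem_Fix.1 (y.1 i j).2

end Cfsg.Agent.H497.HCTwoB
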