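import Mathlib
import Cfsg.Agent.H497.HCTwoA
import Cfsg.Agent.CpAut.Psl

/-!
# The Singer cycle of `GL_2(q)` (helper497)
-/

set_option autoImplicit false

namespace Cfsg.Agent.H497.HCTwoA

open Matrix Cfsg.Agent.CpAut.Psl

theorem exists_singer (F : Type*) [Field F] [Fintype F] : ∃ γ : GL (Fin 2) F,
    (∀ v w : Fin 2 → F, v ≠ 0 → w ≠ 0 → ∃ n : ℕ, ac (γ ^ n) v = w) ∧
      ∀ n : ℕ, (∃ c : Fˣ, γ ^ n = scg c) → Fintype.card F + 1 ∣ n := by
  classical
  obtain ⟨p, hp⟩ := CharP.exists F
  obtain ⟨n, hp', hn⟩ := FiniteField.card F p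
  have : Fact p.Prime := ⟨hp'⟩
  let E := FiniteField.Extension F p 2
  have hE : Module.finrank F E = 2 := FiniteField.finrank_extension F p 2
  have hFE : Module.Finite F E := Module.finite_of_finrank_pos (by rw [hE]; norm_num)
  have hfE : Finite E := Module.finite_of_finite F
  have b : Module.Basis (Fin 2) F E := Module.finBasisOfFinrankEq F E hE
  set L := Algebra.leftMulMatrix b with hL
  have hLinj : Function.Injective L := Algebra.leftMulMatrix_injective b
  have hcard : Nat.card E = Fintype.card F ^ 2 := by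
    rw [Module.natCard_eq_pow_finrank (K := F) (V := E), hE, Nat.card_eq_fintype_card]
  obtain ⟨ζ, hζ⟩ := IsCyclic.exists_generator (α := Eˣ)
  have hord : orderOf ζ = Fintype.card F ^ 2 - 1 := by
    rw [orderOf_eq_card_of_forall_mem_zpowers hζ, Nat.card_units, hcard]
  let s : Eˣ →* GL (Fin 2) F := Units.map (L : E →* Matrix (Fin 2) (Fin 2) F)
  have hs : ∀ x : Eˣ, ((s x : GL (Fin 2) F) : Matrix (Fin 2) (Fin 2) F) = L (x : E) := fun _ => rfl
  refine ⟨s ζ, ?_, ?_⟩
  · intro v w hv hw
    set v' : E := b.equivFun.symm v with hv'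
    set w' : E := b.equivFun.symm w with hw'
    have hv0 : v' ≠ 0 := by
      rw [hv', Ne, LinearEquiv.map_eq_zero_iff]
      exact hv
    have hw0 : w' ≠ 0 := by
      rw [hw', Ne, LinearEquiv.map_eq_zero_iff]
      exact hw
    obtain ⟨k, hk⟩ := (mem_powers_iff_mem_zpowers (x := ζ)).2 (hζ (Units.mk0 (w' / v') (div_ne_zero hw0 hv0)))
    refine ⟨k, ?_⟩
    have hk' : ζ ^ k = Units.mk0 (w' / v') (div_ne_zero hw0 hv0) := hk
    unfold ac
    rw [← map_pow, hk', hs]
    have h1 : v = (b.repr v' : Fin 2 → F) := by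
      have := b.equivFun.apply_symm_apply v
      exact this.symm
    have h2 : w = (b.repr w' : Fin 2 → F) := by
      have := b.equivFun.apply_symm_apply w
      exact this.symm
    rw [h1, h2, hL, Algebra.leftMulMatrix_mulVec_repr, Units.val_mk0, div_mul_cancel₀ _ hv0]
  · rintro k ⟨c, hc⟩
    have h1 : L ((ζ : E) ^ k) = L (algebraMap F E c) := by
      have h2 := congrArg Units.val hc
      rw [← map_pow, hs] at h2
      rw [← Units.val_pow_eq_pow_val, h2, AlgHom.commutes]
      rfl
    have h3 : (ζ : E) ^ k = algebraMap F E c := hLinj h1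
    have h4 : ζ ^ (k * (Fintype.card F - 1)) = 1 := by
      apply Units.ext
      rw [Units.val_pow_eq_pow_val, pow_mul, h3, ← map_pow, ← Units.val_pow_eq_pow_val]
      have h5 : c ^ (Fintype.card F - 1) = 1 := by
        rw [← Fintype.card_units]
        exact pow_card_eq_one
      rw [h5]
      simp
    have h5 := orderOf_dvd_of_pow_eq_one h4
    rw [hord] at h5
    have h6 : Fintype.card F ^ 2 - 1 = (Fintype.card F + 1) * (Fintype.card F - 1) := by
      simpa using Nat.sq_sub_sq (Fintype.card F) 1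
    rw [h6] at h5
    have h7 : 0 < Fintype.card F - 1 := by
      have : 1 < Fintype.card F := Fintype.one_lt_card
      omega
    exact Nat.dvd_of_mul_dvd_mul_right h7 h5

end Cfsg.Agent.H497.HCTwoA
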