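import Mathlib
import Cfsg.Agent.H581.HC
import Cfsg.Agent.H497.HCTwoB
import Cfsg.Agent.H497.HCTwoS
import Cfsg.Agent.H356.SLTorus

/-!
# Hall coverings: almost simple groups with socle `PSL_2(q)` (helper497, task 411, for S4388)
-/

set_option autoImplicit false

namespace Cfsg.Agent.H497.HCTwo

open Matrix Subgroup Cfsg.Agent.H581 Cfsg.Agent.H497.HCTwoA Cfsg.Agent.H497.HCTwoB
open Cfsg.Agent.ClassicalGeometry.AutPSL.Root
open Cfsg.Agent.ClassicalGeometry.AutPSL.Auto
open Cfsg.Agent.ClassicalGeometry.AutPSL.Main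
open Cfsg.Agent.CpAut.Psl Cfsg.Agent.H864.FpfPSL

/-! ### index -/

theorem relIndex_dvd {G : Type*} [Group G] [Finite G] (H N : Subgroup G) [N.Normal] : H.relIndex N ∣ H.index := by
  have h1 := relIndex_mul_index (inf_le_right : H ⊓ N ≤ N)
  have h2 := relIndex_mul_index (inf_le_left : H ⊓ N ≤ H)
  rw [inf_relIndex_right] at h1
  rw [inf_relIndex_left] at h2
  obtain ⟨m, hm⟩ : N.relIndex H ∣ N.index := relIndex_dvd_index_of_normal N H
  refine ⟨m, ?_⟩
  have h3 : N.relIndex H ≠ 0 := by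
    intro h0
    have h4 := N.relIndex_dvd_card H
    rw [h0, zero_dvd_iff] at h4
    exact Nat.card_pos.ne' h4
  apply Nat.eq_of_mul_eq_mul_left (Nat.pos_of_ne_zero h3)
  rw [h2, ← h1, hm]
  ring

/-- preimages of Hall subgroups -/
theorem comap_index {L G : Type*} [Group L] [Group G] [Finite G] {σ : Set ℕ} (f : L →* G) (hf : f.range.Normal)
    {H : Subgroup G} (hH : IsHallFor σ H) {r : ℕ} (hr : r.Prime) (hrσ : r ∈ σ) : ¬ r ∣ (H.comap f).index := by
  rw [index_comap]
  exact fun h => hH.index r hr hrσ (h.trans (relIndex_dvd H f.range))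

variable {F : Type*} [Field F]

/-- the inner automorphisms -/
abbrev Inn (F : Type*) [Field F] : Subgroup (MulAut (Matrix.ProjectiveSpecialLinearGroup (Fin 2) F)) :=
  (MulAut.conj : Matrix.ProjectiveSpecialLinearGroup (Fin 2) F →* _).range

/-- the determinant is a square -/
def Sq (g : GL (Fin 2) F) : Prop := ∃ c : Fˣ, Matrix.GeneralLinearGroup.det g = c ^ 2

theorem conj_pr (x : Matrix.SpecialLinearGroup (Fin 2) F) : MulAut.conj (pr x) = lift (cj (tg x)) := by
  apply MulEquiv.ext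
  intro y
  obtain ⟨y, rfl⟩ := pr_surjective y
  rw [lift_pr, MulAut.conj_apply, ← map_mul, ← map_inv, ← map_mul]
  congr 1

theorem det_tg (x : Matrix.SpecialLinearGroup (Fin 2) F) : Matrix.GeneralLinearGroup.det (tg x) = 1 := by
  apply Units.ext
  exact x.2

theorem mem_inn_iff {g : GL (Fin 2) F} {τ : F ≃+* F} : lift (cj g * fld τ) ∈ Inn F ↔ τ = 1 ∧ Sq g := by
  constructor
  · rintro ⟨x, hx⟩
    obtain ⟨x, rfl⟩ := pr_surjective x
    rw [conj_pr] at hx
    have h1 : lift (cj g * fld τ) = lift (cj (tg x) * fld 1) := by rw [← hx, map_one, mul_one]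
    obtain ⟨⟨c, hc⟩, h2⟩ := uniq h1
    refine ⟨h2, c, ?_⟩
    rw [hc, map_mul, det_scg, det_tg, mul_one, Fintype.card_fin]
  · rintro ⟨rfl, c, hc⟩
    rw [map_one, mul_one]
    exact inner_of_det (c := c) (by rw [hc, Fintype.card_fin])

theorem inn_normal : (Inn F).Normal := by
  refine ⟨?_⟩
  rintro _ ⟨x, rfl⟩ a
  refine ⟨a x, ?_⟩
  apply MulEquiv.ext
  intro y
  simp [MulAut.conj_apply, map_mul]

/-! ### squares -/

theorem isSquare_mul_of_not [Finite F] {u v : F} (hu0 : u ≠ 0) (hv0 : v ≠ 0) (hu : ¬ IsSquare u) (hv : ¬ IsSquare v) :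
    IsSquare (u * v) := by
  have := Fintype.ofFinite F
  by_cases hF : ringChar F = 2
  · exact FiniteField.isSquare_of_char_two hF _
  · have h4 : ∀ z : F, z ≠ 0 → ¬ IsSquare z → z ^ (Fintype.card F / 2) = -1 := by
      intro z hz hz1
      rcases FiniteField.pow_dichotomy hF hz with h | h
      · exact absurd ((FiniteField.isSquare_iff hF hz).2 h) hz1
      · exact h
    rw [FiniteField.isSquare_iff hF (mul_ne_zero hu0 hv0), mul_pow, h4 u hu0 hu, h4 v hv0 hv, neg_one_mul, neg_neg]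

theorem sq_iff {g : GL (Fin 2) F} : Sq g ↔ IsSquare ((Matrix.GeneralLinearGroup.det g : Fˣ) : F) := by
  constructor
  · rintro ⟨c, hc⟩
    exact ⟨c, by rw [hc, Units.val_pow_eq_pow_val, pow_two]⟩
  · rintro ⟨c, hc⟩
    have hc0 : c ≠ 0 := by
      rintro rfl
      rw [mul_zero] at hc
      exact (Matrix.GeneralLinearGroup.det g).ne_zero hc
    refine ⟨Units.mk0 c hc0, Units.ext ?_⟩
    rw [Units.val_pow_eq_pow_val, Units.val_mk0, pow_two]
    exact hc

theorem Sq.mul {g h : GL (Fin 2) F} (hg : Sq g) (hh : Sq h) : Sq (g * h) := by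
  obtain ⟨c, hc⟩ := hg
  obtain ⟨d, hd⟩ := hh
  exact ⟨c * d, by rw [map_mul, hc, hd, mul_pow]⟩

theorem Sq.inv {g : GL (Fin 2) F} (hg : Sq g) : Sq g⁻¹ := by
  obtain ⟨c, hc⟩ := hg
  exact ⟨c⁻¹, by rw [map_inv, hc, inv_pow]⟩

theorem sq_mul_of_not [Finite F] {g h : GL (Fin 2) F} (hg : ¬ Sq g) (hh : ¬ Sq h) : Sq (g * h) := by
  rw [sq_iff] at *
  rw [map_mul, Units.val_mul]
  exact isSquare_mul_of_not (Units.ne_zero _) (Units.ne_zero _) hg hh

theorem sq_fgl {g : GL (Fin 2) F} (τ : F ≃+* F) : Sq (fgl τ g) ↔ Sq g := by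
  constructor
  · rintro ⟨c, hc⟩
    rw [det_fgl] at hc
    refine ⟨Units.map (τ.symm : F →* F) c, ?_⟩
    rw [← map_pow, ← hc]
    apply Units.ext
    exact (τ.symm_apply_apply _).symm
  · rintro ⟨c, hc⟩
    exact ⟨Units.map (τ : F →* F) c, by rw [det_fgl, hc, map_pow]⟩

theorem sq_mul_fgl [Finite F] (g : GL (Fin 2) F) (τ : F ≃+* F) : Sq (g * fgl τ g) := by
  by_cases h : Sq g
  · exact h.mul ((sq_fgl τ).2 h)
  · exact sq_mul_of_not h (fun h1 => h ((sq_fgl τ).1 h1))

/-! ### the setup -/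

/-- an almost simple group with socle `PSL_2(F)` with a Hall covering -/
structure Setup (A : Subgroup (MulAut (Matrix.ProjectiveSpecialLinearGroup (Fin 2) F))) (σ : Set ℕ) : Prop where
  inn : Inn F ≤ A
  prime : ∀ t : ℕ, t.Prime → t ∣ (Inn F).relIndex A → t ∈ σ
  hc : HC A σ

namespace Setup

variable {A : Subgroup (MulAut (Matrix.ProjectiveSpecialLinearGroup (Fin 2) F))} {σ : Set ℕ}

/-- `SL_2(F) → A` -/
def f (h : Setup A σ) : Matrix.SpecialLinearGroup (Fin 2) F →* A :=
  ((MulAut.conj : Matrix.ProjectiveSpecialLinearGroup (Fin 2) F →* _).comp pr).codRestrict A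
    (fun x => h.inn ⟨pr x, rfl⟩)

theorem f_coe (h : Setup A σ) (x : Matrix.SpecialLinearGroup (Fin 2) F) : (h.f x : MulAut _) = MulAut.conj (pr x) := rfl

theorem range_f (h : Setup A σ) : h.f.range = (Inn F).subgroupOf A := by
  ext a
  rw [mem_subgroupOf]
  constructor
  · rintro ⟨x, rfl⟩
    exact ⟨pr x, rfl⟩
  · rintro ⟨x, hx⟩
    obtain ⟨x, rfl⟩ := pr_surjective x
    exact ⟨x, Subtype.ext hx⟩

theorem range_normal (h : Setup A σ) : h.f.range.Normal := by
  rw [h.range_f]
  have := inn_normal (F := F)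
  infer_instance

theorem index_range (h : Setup A σ) : h.f.range.index = (Inn F).relIndex A := by
  rw [h.range_f]
  rfl

theorem scalar_of_f (h : Setup A σ) {x : Matrix.SpecialLinearGroup (Fin 2) F} (hx : h.f x = 1) :
    x ∈ center (Matrix.SpecialLinearGroup (Fin 2) F) := by
  have h1 : MulAut.conj (pr x) = 1 := congrArg Subtype.val hx
  rw [conj_pr] at h1
  have h2 : lift (cj (tg x) * fld 1) = lift (cj (1 : GL (Fin 2) F) * fld 1) := by
    rw [map_one fld, mul_one, h1, map_one cj, mul_one, map_one]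
  obtain ⟨⟨c, hc⟩, -⟩ := uniq h2
  rw [← pr_eq_one_iff]
  have h3 : pr (1 : Matrix.SpecialLinearGroup (Fin 2) F) = pr x :=
    pr_eq_iff.2 ⟨c, by rw [hc, map_one]⟩
  rw [← h3, map_one]

/-- elements of odd prime order keep their order -/
theorem orderOf_f (h : Setup A σ) {x : Matrix.SpecialLinearGroup (Fin 2) F} {r : ℕ} (hr : r.Prime) (hr2 : r ≠ 2)
    (hx : orderOf x = r) : orderOf (h.f x) = r := by
  have : Fact r.Prime := ⟨hr⟩
  have hxr : x ^ r = 1 := orderOf_dvd_iff_pow_eq_one.1 (dvd_of_eq hx)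
  refine orderOf_eq_prime (by rw [← map_pow, hxr, map_one]) ?_
  intro h1
  have h2 := Cfsg.Agent.H356.SLTorus.sq_of_center (h.scalar_of_f h1)
  rw [pow_two] at h2
  have h3 := eq_one_of_sq hxr (hr.odd_of_ne_two hr2) h2
  rw [h3, orderOf_one] at hx
  exact hr.one_lt.ne hx

variable [Fintype F]

theorem finA : Finite A := inferInstance

/-- the prime not in `σ` divides the order of `PSL_2(F)` -/
theorem exists_prime (h : Setup A σ) : ∃ r : ℕ, r.Prime ∧ r ∉ σ ∧ r ∣ Nat.card h.f.range := by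
  obtain ⟨r, hr, hd, hn⟩ := h.hc.ne
  refine ⟨r, hr, hn, ?_⟩
  rw [← h.f.range.card_mul_index, hr.dvd_mul] at hd
  refine hd.resolve_right fun h1 => hn (h.prime r hr ?_)
  rwa [← h.index_range]

theorem comap_ne_top (h : Setup A σ) {H : Subgroup A} (hH : IsHallFor σ H) : H.comap h.f ≠ ⊤ := by
  intro h1
  obtain ⟨r, hr, hn, hd⟩ := h.exists_prime
  have h2 : h.f.range ≤ H := by
    rintro _ ⟨x, rfl⟩
    have : x ∈ H.comap h.f := h1 ▸ mem_top x
    exact this
  exact hn (hH.card r hr (hd.trans (card_dvd_of_le h2)))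

theorem card_range_dvd (h : Setup A σ) : Nat.card h.f.range ∣ Fintype.card F * (Fintype.card F ^ 2 - 1) := by
  rw [← Cfsg.Agent.ClassicalGeometry.PSL2Basic.card_SL2]
  exact Subgroup.card_range_dvd h.f

/-! ### field automorphisms -/

theorem lift_fld_ne_one {τ : F ≃+* F} (hτ : τ ≠ 1) :
    lift (fld τ) ≠ (1 : MulAut (Matrix.ProjectiveSpecialLinearGroup (Fin 2) F)) := by
  intro h1
  have h2 : lift (cj (1 : GL (Fin 2) F) * fld τ) = lift (cj (1 : GL (Fin 2) F) * fld 1) := by
    rw [map_one cj, one_mul, h1, map_one fld, one_mul, map_one]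
  exact hτ (uniq h2).2

theorem no_field (h : Setup A σ) {τ : F ≃+* F} {t : ℕ} (ht : t.Prime) (hτ : orderOf τ = t)
    (hA : lift (fld τ) ∈ A) (htσ : t ∈ σ) : False := by
  classical
  have hft : Fact t.Prime := ⟨ht⟩
  have hτ1 : τ ≠ 1 := by
    rintro rfl
    rw [orderOf_one] at hτ
    exact ht.one_lt.ne hτ
  obtain ⟨p, hp⟩ := CharP.exists F
  obtain ⟨n, hp', hn⟩ := FiniteField.card F p
  have hfp : Fact p.Prime := ⟨hp'⟩
  let α : A := ⟨lift (fld τ), hA⟩
  have hα : orderOf α = t := by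
    refine orderOf_eq_prime ?_ ?_
    · apply Subtype.ext
      change lift (fld τ) ^ t = 1
      rw [← map_pow, ← map_pow, orderOf_dvd_iff_pow_eq_one.1 (dvd_of_eq hτ), map_one, map_one]
    · intro h1
      exact lift_fld_ne_one hτ1 (congrArg Subtype.val h1)
  have hcomm : ∀ x : Matrix.SpecialLinearGroup (Fin 2) F, α * h.f x * α⁻¹ = h.f (fld τ x) := by
    intro x
    apply Subtype.ext
    apply MulEquiv.ext
    intro y
    change lift (fld τ) (MulAut.conj (pr x) ((lift (fld τ))⁻¹ y)) = MulAut.conj (pr (fld τ x)) y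
    rw [MulAut.conj_apply, MulAut.conj_apply, map_mul, map_mul, map_inv, MulAut.apply_inv_self, lift_pr]
  have hfix : ∀ x : Matrix.SpecialLinearGroup (Fin 2) F, fld τ x = x → Commute α (h.f x) := by
    intro x hx
    have h1 := hcomm x
    rw [hx, mul_inv_eq_iff_eq_mul] at h1
    exact h1
  by_cases hp2 : p = 2
  · subst hp2
    have hτt : τ ^ t = 1 := orderOf_dvd_iff_pow_eq_one.1 (dvd_of_eq hτ)
    have hcard := Cfsg.Agent.Walter.FieldPSL.card_eq_Fix_pow τ
    rw [hτ, Nat.card_eq_fintype_card] at hcard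
    set q₀ := Nat.card (Cfsg.Agent.Walter.FieldPSL.Fix τ) with hq₀
    have hq₀2 : 2 ∣ q₀ := by
      have h1 : 2 ∣ q₀ ^ t := by
        rw [← hcard, hn]
        exact dvd_pow_self 2 n.2.ne'
      exact Nat.prime_two.dvd_of_dvd_pow h1
    have hq₀1 : 1 < q₀ := Finite.one_lt_card
    obtain ⟨r, hr, hrq⟩ := Nat.exists_prime_and_dvd (show q₀ + 1 ≠ 1 by omega)
    have hfr : Fact r.Prime := ⟨hr⟩
    have hr2 : r ≠ 2 := by
      rintro rfl
      omega
    obtain ⟨y, hy, hyτ⟩ := exists_fixed τ hrq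
    have hfy := h.orderOf_f hr hr2 hy
    have hrσ : r ∈ σ := h.hc.commute htσ (hfix y hyτ) ht hr (by rw [hα]) (by rw [hfy])
    by_cases ht2 : t = 2
    · subst ht2
      have hα2 : α ^ 2 = 1 := orderOf_dvd_iff_pow_eq_one.1 (dvd_of_eq hα)
      have hfyr : h.f y ^ r = 1 := orderOf_dvd_iff_pow_eq_one.1 (dvd_of_eq hfy)
      have hαr : (α * h.f y) ^ r = α := by
        rw [(hfix y hyτ).mul_pow, hfyr, mul_one]
        obtain ⟨k, hk⟩ := hr.odd_of_ne_two hr2
        rw [hk, pow_succ, pow_mul, hα2, one_pow, one_mul]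
      have h2o : 2 ∣ orderOf (α * h.f y) := by
        have h1 : α ∈ zpowers (α * h.f y) := by
          have h2 : (α * h.f y) ^ r ∈ zpowers (α * h.f y) := pow_mem (mem_zpowers _) r
          rwa [hαr] at h2
        exact (dvd_of_eq hα.symm).trans (orderOf_dvd_of_mem_zpowers h1)
      obtain ⟨H, hgH, hH⟩ := h.hc.cov (α * h.f y) 2 Nat.prime_two h2o h.hc.two
      have hαH : α ∈ H := by
        have h1 := pow_mem hgH r
        rwa [hαr] at h1
      have hyH : y ∈ H.comap h.f := by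
        change h.f y ∈ H
        have h1 := mul_mem (inv_mem hαH) hgH
        rwa [inv_mul_cancel_left] at h1
      refine even_two_false (K := H.comap h.f) hτt (comap_index h.f h.range_normal hH Nat.prime_two h.hc.two)
        (h.comap_ne_top hH) ?_ hr2 (q₀ := q₀) ?_ (by omega) hrq hy hyH hyτ
      · intro k hk
        change h.f (fld τ k) ∈ H
        rw [← hcomm]
        exact mul_mem (mul_mem hαH hk) (inv_mem hαH)
      · intro x hx
        let x' : Cfsg.Agent.Walter.FieldPSL.Fix τ := ⟨x, Cfsg.Agent.Walter.FieldPSL.mem_Fix.2 hx⟩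
        have : Fintype (Cfsg.Agent.Walter.FieldPSL.Fix τ) := Fintype.ofFinite _
        have h1 := FiniteField.pow_card x'
        rw [← Nat.card_eq_fintype_card] at h1
        exact congrArg Subtype.val h1
    · obtain ⟨H, -, hH⟩ := h.hc.cov α t ht (by rw [hα]) htσ
      refine even_odd_false (K := H.comap h.f) (comap_index h.f h.range_normal hH Nat.prime_two h.hc.two)
        (h.comap_ne_top hH) hr2 ?_ (comap_index h.f h.range_normal hH hr hrσ) hy
      rw [hcard]
      have h1 := (ht.odd_of_ne_two ht2).nat_add_dvd_pow_add_pow q₀ 1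
      rw [one_pow] at h1
      exact hrq.trans h1
  · have hF2 : (2 : F) ≠ 0 := by
      intro h0
      have h1 : p ∣ 2 := (CharP.cast_eq_zero_iff F p 2).1 (by exact_mod_cast h0)
      exact hp2 ((Nat.prime_dvd_prime_iff_eq hp' Nat.prime_two).1 h1)
    let x : Matrix.SpecialLinearGroup (Fin 2) F := Cfsg.Agent.LieClassical.SLTwoUnipotent.u 1
    have hx : orderOf x = p := by
      refine orderOf_eq_prime ?_ ?_
      · have h1 : ∀ k : ℕ, x ^ k = Cfsg.Agent.LieClassical.SLTwoUnipotent.u (k : F) := by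
          intro k
          induction k with
          | zero => rw [pow_zero, Nat.cast_zero, Cfsg.Agent.LieClassical.SLTwoUnipotent.u_zero]
          | succ k ih => rw [pow_succ, ih, Nat.cast_succ, Cfsg.Agent.LieClassical.SLTwoUnipotent.u_add]
        rw [h1, CharP.cast_eq_zero, Cfsg.Agent.LieClassical.SLTwoUnipotent.u_zero]
      · intro h1
        have h2 := congrArg (fun z : Matrix.SpecialLinearGroup (Fin 2) F => (z : Matrix (Fin 2) (Fin 2) F) 0 1) h1
        exact one_ne_zero h2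
    have hxτ : fld τ x = x := by
      apply Subtype.ext
      ext i j
      change τ ((x : Matrix (Fin 2) (Fin 2) F) i j) = (x : Matrix (Fin 2) (Fin 2) F) i j
      fin_cases i <;> fin_cases j
      · exact map_one τ
      · exact map_one τ
      · exact map_zero τ
      · exact map_one τ
    have hpσ : p ∈ σ := h.hc.commute htσ (hfix x hxτ) ht hp' (by rw [hα]) (by rw [h.orderOf_f hp' hp2 hx])
    obtain ⟨H, -, hH⟩ := h.hc.cov α t ht (by rw [hα]) htσ
    exact h.comap_ne_top hH (odd_top p hF2 (comap_index h.f h.range_normal hH hp' hpσ)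
      (comap_index h.f h.range_normal hH Nat.prime_two h.hc.two))

end Setup

end Cfsg.Agent.H497.HCTwo
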