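import Mathlib
import Cfsg.Agent.H497.HCTwo

/-!
# Hall coverings: almost simple groups with socle `PSL_2(q)`, diagonal automorphisms (helper497, task 411, for S4388)
-/

set_option autoImplicit false

namespace Cfsg.Agent.H497.HCTwo

open Matrix Subgroup Cfsg.Agent.H581 Cfsg.Agent.H497.HCTwoA Cfsg.Agent.H497.HCTwoB
open Cfsg.Agent.ClassicalGeometry.AutPSL.Root
open Cfsg.Agent.ClassicalGeometry.AutPSL.Auto
open Cfsg.Agent.ClassicalGeometry.AutPSL.Main
open Cfsg.Agent.CpAut.Psl Cfsg.Agent.H864.FpfPSL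

variable {F : Type*} [Field F]

theorem ac_scg (c : Fˣ) (v : Fin 2 → F) : ac (scg c) v = (c : F) • v := scalar_apply_eq rfl v

/-- a unipotent matrix has order dividing `p` -/
theorem unip_pow (p : ℕ) [hp : Fact p.Prime] [CharP F p] {x : GL (Fin 2) F} {v : Fin 2 → F} (hv : v ≠ 0)
    (hx : ac x v = v) (hd : Matrix.GeneralLinearGroup.det x = 1) : x ^ p = 1 := by
  have hd' : (x : Matrix (Fin 2) (Fin 2) F).det = 1 := congrArg Units.val hd
  have h1 := sq_zero hd' hv hx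
  apply Units.ext
  rw [Units.val_pow_eq_pow_val, Units.val_one]
  have h2 : (x : Matrix (Fin 2) (Fin 2) F) = ((x : Matrix (Fin 2) (Fin 2) F) - 1) + 1 := by abel
  rw [h2, add_pow_char_of_commute p (Commute.one_right _), one_pow]
  obtain ⟨k, hk⟩ : ∃ k, p = 2 + k := ⟨p - 2, by have := hp.out.two_le; omega⟩
  rw [hk, pow_add, pow_two, h1, zero_mul, zero_add]

namespace Setup

variable {A : Subgroup (MulAut (Matrix.ProjectiveSpecialLinearGroup (Fin 2) F))} {σ : Set ℕ} [Fintype F]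

theorem fld_eq_one (h : Setup A σ) {τ : F ≃+* F} (hA : lift (fld τ) ∈ A) : τ = 1 := by
  by_contra hne
  have hfin : Finite (F ≃+* F) := Finite.of_injective (fun e : F ≃+* F => (e : F → F)) (fun a b h => RingEquiv.ext (congrFun h))
  obtain ⟨t, ht, hd⟩ := Nat.exists_prime_and_dvd (mt orderOf_eq_one_iff.1 hne)
  have hτ' : orderOf (τ ^ (orderOf τ / t)) = t := orderOf_pow_orderOf_div (orderOf_pos τ).ne' hd
  obtain ⟨τ', hτ''⟩ : ∃ τ', τ' = τ ^ (orderOf τ / t) := ⟨_, rfl⟩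
  rw [← hτ''] at hτ'
  have hA' : lift (fld τ') ∈ A := by
    rw [hτ'', map_pow, map_pow]
    exact pow_mem hA _
  refine h.no_field ht hτ' hA' (h.prime t ht ?_)
  have : ((Inn F).subgroupOf A).Normal := by
    have := inn_normal (F := F)
    infer_instance
  have hft : Fact t.Prime := ⟨ht⟩
  let α : A := ⟨lift (fld τ'), hA'⟩
  have h1 : orderOf (QuotientGroup.mk' ((Inn F).subgroupOf A) α) = t := by
    refine orderOf_eq_prime ?_ ?_
    · rw [← map_pow]
      have h2 : α ^ t = 1 := by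
        apply Subtype.ext
        change lift (fld τ') ^ t = 1
        rw [← map_pow, ← map_pow, orderOf_dvd_iff_pow_eq_one.1 (dvd_of_eq hτ'), map_one, map_one]
      rw [h2, map_one]
    · intro h2
      have h3 : α ∈ (Inn F).subgroupOf A := (QuotientGroup.eq_one_iff _).1 h2
      have h4 : lift (cj (1 : GL (Fin 2) F) * fld τ') ∈ Inn F := by
        rw [map_one, one_mul]
        exact h3
      have h5 := (mem_inn_iff.1 h4).1
      rw [h5, orderOf_one] at hτ'
      exact ht.one_lt.ne hτ'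
  have h6 := orderOf_dvd_natCard (QuotientGroup.mk' ((Inn F).subgroupOf A) α)
  rw [h1] at h6
  exact h6

/-- `GL_2(F) → A` -/
def f₂ (hD : ∀ g : GL (Fin 2) F, lift (cj g) ∈ A) : GL (Fin 2) F →* A :=
  ((lift.comp cj : GL (Fin 2) F →* MulAut _)).codRestrict A hD

theorem f₂_coe (hD : ∀ g : GL (Fin 2) F, lift (cj g) ∈ A) (g : GL (Fin 2) F) : (f₂ hD g : MulAut _) = lift (cj g) := rfl

theorem f₂_eq_one (hD : ∀ g : GL (Fin 2) F, lift (cj g) ∈ A) {g : GL (Fin 2) F} (h : f₂ hD g = 1) : ∃ c : Fˣ, g = scg c := by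
  have h1 : lift (cj g) = 1 := congrArg Subtype.val h
  have h2 : lift (cj g * fld 1) = lift (cj (1 : GL (Fin 2) F) * fld 1) := by
    rw [map_one fld, mul_one, h1, map_one cj, mul_one, map_one]
  obtain ⟨⟨c, hc⟩, -⟩ := uniq h2
  exact ⟨c, by rw [hc, mul_one]⟩

theorem f₂_scg (hD : ∀ g : GL (Fin 2) F, lift (cj g) ∈ A) (c : Fˣ) : f₂ hD (scg c) = 1 := by
  apply Subtype.ext
  change lift (cj (scg c)) = 1
  rw [cj_scg, map_one]

theorem f₂_normal (hD : ∀ g : GL (Fin 2) F, lift (cj g) ∈ A) : (f₂ hD).range.Normal := by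
  obtain ⟨p, hp⟩ := CharP.exists F
  obtain ⟨n, hp', hn⟩ := FiniteField.card F p
  have hfp : Fact p.Prime := ⟨hp'⟩
  refine ⟨?_⟩
  rintro _ ⟨g, rfl⟩ ⟨a, ha⟩
  obtain ⟨k, τ, hk⟩ := surj_two p a
  refine ⟨k * fgl τ g * k⁻¹, ?_⟩
  apply Subtype.ext
  change lift (cj (k * fgl τ g * k⁻¹)) = a * lift (cj g) * a⁻¹
  rw [hk, ← map_inv, ← map_mul, ← map_mul]
  congr 1
  rw [_root_.mul_inv_rev, mul_assoc (cj k), fld_mul_cj, map_mul, map_mul, map_inv]
  group

theorem no_diag (h : Setup A σ) (h4 : 4 ≤ Fintype.card F) {g : GL (Fin 2) F} (hA : lift (cj g) ∈ A) : Sq g := by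
  classical
  by_contra hg
  have hD : ∀ g' : GL (Fin 2) F, lift (cj g') ∈ A := by
    intro g'
    have hsq : ∀ g' : GL (Fin 2) F, Sq g' → lift (cj g') ∈ A := by
      intro g' hg'
      apply h.inn
      have := mem_inn_iff.2 ⟨rfl, hg'⟩
      rwa [map_one, mul_one] at this
    by_cases hg' : Sq g'
    · exact hsq g' hg'
    · have h1 := hsq _ (sq_mul_of_not hg' hg)
      rw [map_mul, map_mul] at h1
      exact (mul_mem_cancel_right hA).1 h1
  obtain ⟨p, hp⟩ := CharP.exists F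
  obtain ⟨n, hp', hn⟩ := FiniteField.card F p
  have hfp : Fact p.Prime := ⟨hp'⟩
  have hrc : ringChar F ≠ 2 := by
    intro h2
    exact hg (sq_iff.2 (FiniteField.isSquare_of_char_two h2 _))
  have h2F : (2 : F) ≠ 0 := Ring.two_ne_zero hrc
  have hodd : Fintype.card F % 2 = 1 := FiniteField.odd_card_of_char_ne_two hrc
  set q := Fintype.card F with hq
  obtain ⟨ζ, hζ⟩ := IsCyclic.exists_generator (α := Fˣ)
  have hζo : orderOf ζ = q - 1 := by
    rw [orderOf_eq_card_of_forall_mem_zpowers hζ, Nat.card_units, Nat.card_eq_fintype_card]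
  obtain ⟨γ, hγtr, hγo⟩ := exists_singer F
  -- primes
  have hσ1 : ∀ r : ℕ, r.Prime → r ∣ q - 1 → r ∈ σ := by
    intro r hr hrd
    let d : GL (Fin 2) F := Matrix.GeneralLinearGroup.mkOfDetNeZero !![(ζ : F), 0; 0, 1] (by
      rw [det_fin_two_of]; simp)
    have hpow : ∀ n : ℕ, ((d ^ n : GL (Fin 2) F) : Matrix (Fin 2) (Fin 2) F) = !![(ζ : F) ^ n, 0; 0, 1] := by
      intro n
      induction n with
      | zero => rw [pow_zero, pow_zero, Units.val_one, one_fin_two]
      | succ n ih =>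
        rw [pow_succ, Units.val_mul, ih]
        change !![(ζ : F) ^ n, 0; 0, 1] * !![(ζ : F), 0; 0, 1] = _
        rw [mul_fin_two]
        simp [pow_succ]
    have hdo : q - 1 ∣ orderOf (f₂ hD d) := by
      have h1 : f₂ hD (d ^ orderOf (f₂ hD d)) = 1 := by rw [map_pow, pow_orderOf_eq_one]
      obtain ⟨c, hc⟩ := f₂_eq_one hD h1
      have h2 := congrArg Units.val hc
      rw [hpow] at h2
      have h3 : (ζ : F) ^ orderOf (f₂ hD d) = c := by
        have := congrFun (congrFun h2 0) 0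
        simpa [scg] using this
      have h5 : (1 : F) = c := by
        have := congrFun (congrFun h2 1) 1
        simpa [scg] using this
      rw [← hζo]
      apply orderOf_dvd_of_pow_eq_one
      apply Units.ext
      rw [Units.val_pow_eq_pow_val, h3, ← h5, Units.val_one]
    exact h.hc.iso (f₂ hD d) 2 r Nat.prime_two hr ((by omega : 2 ∣ q - 1).trans hdo) (hrd.trans hdo) h.hc.two
  have hγo' : q + 1 ∣ orderOf (f₂ hD γ) := by
    apply hγo
    exact f₂_eq_one hD (by rw [map_pow, pow_orderOf_eq_one])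
  have hσ2 : ∀ r : ℕ, r.Prime → r ∣ q + 1 → r ∈ σ := fun r hr hrd =>
    h.hc.iso (f₂ hD γ) 2 r Nat.prime_two hr ((by omega : 2 ∣ q + 1).trans hγo') (hrd.trans hγo') h.hc.two
  have hq2 : q ^ 2 - 1 = (q - 1) * (q + 1) := by
    obtain ⟨m, hm⟩ : ∃ m, q = m + 1 := ⟨q - 1, by omega⟩
    rw [hm]
    have : (m + 1) ^ 2 = m * (m + 1 + 1) + 1 := by ring
    rw [this]
    simp
  have hσ3 : ∀ r : ℕ, r.Prime → r ∣ q ^ 2 - 1 → r ∈ σ := by
    intro r hr hrd
    rw [hq2, hr.dvd_mul] at hrd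
    rcases hrd with h1 | h1
    · exact hσ1 r hr h1
    · exact hσ2 r hr h1
  have hpσ : p ∉ σ := by
    intro hpσ
    obtain ⟨r, hr, hn', hd⟩ := h.exists_prime
    have h1 := hd.trans h.card_range_dvd
    rw [hr.dvd_mul] at h1
    rcases h1 with h1 | h1
    · rw [← hq, hn] at h1
      have h2 := (Nat.prime_dvd_prime_iff_eq hr hp').1 (hr.dvd_of_dvd_pow h1)
      exact hn' (h2 ▸ hpσ)
    · exact hn' (hσ3 r hr h1)
  obtain ⟨H, hγH, hH⟩ := h.hc.cov (f₂ hD γ) 2 Nat.prime_two ((by omega : 2 ∣ q + 1).trans hγo') h.hc.two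
  set K : Subgroup (GL (Fin 2) F) := H.comap (f₂ hD) with hK
  have hidx : ∀ r : ℕ, r.Prime → r ∈ σ → ¬ r ∣ K.index := fun r hr hrσ =>
    comap_index (f₂ hD) (f₂_normal hD) hH hr hrσ
  have hcard : (q ^ 2 - 1) * (q - 1) ≤ Nat.card K := by
    have h1 := K.card_mul_index
    rw [Cfsg.Agent.ClassicalGeometry.PSL2Basic.card_GL2, ← hq] at h1
    have h2 : q ^ 2 - q = (q - 1) * q := by
      rw [Nat.sub_mul, one_mul, pow_two]
    rw [h2, ← mul_assoc] at h1
    have hco : Nat.Coprime ((q ^ 2 - 1) * (q - 1)) K.index := by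
      rw [Nat.coprime_iff_gcd_eq_one]
      by_contra hne
      obtain ⟨r, hr, hd⟩ := Nat.exists_prime_and_dvd hne
      refine hidx r hr ?_ (hd.trans (Nat.gcd_dvd_right _ _))
      have h3 := hd.trans (Nat.gcd_dvd_left _ _)
      rw [hr.dvd_mul] at h3
      rcases h3 with h3 | h3
      · exact hσ3 r hr h3
      · exact hσ1 r hr h3
    exact Nat.le_of_dvd Nat.card_pos (hco.dvd_of_dvd_mul_right (h1 ▸ dvd_mul_right _ _))
  have huni : ∀ x ∈ K, ∀ v : Fin 2 → F, v ≠ 0 → ac x v = v → Matrix.GeneralLinearGroup.det x = 1 → x = 1 := by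
    intro x hx v hv hxv hxd
    have h1 := unip_pow p hv hxv hxd
    by_cases h2 : f₂ hD x = 1
    · obtain ⟨c, rfl⟩ := f₂_eq_one hD h2
      rw [ac_scg] at hxv
      obtain ⟨i, hi⟩ : ∃ i, v i ≠ 0 := by
        by_contra hcon
        push Not at hcon
        exact hv (funext hcon)
      have h3 := congrFun hxv i
      rw [Pi.smul_apply, smul_eq_mul] at h3
      have h5 : (c : F) = 1 := by
        apply mul_right_cancel₀ hi
        rw [h3, one_mul]
      have h6 : c = 1 := Units.ext h5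
      rw [h6, scg_one]
    · exfalso
      have h3 : orderOf (f₂ hD x) = p := orderOf_eq_prime (by rw [← map_pow, h1, map_one]) h2
      have h5 : (⟨f₂ hD x, hx⟩ : H) ∈ (⊤ : Subgroup H) := mem_top _
      have h6 : orderOf (⟨f₂ hD x, hx⟩ : H) = p := by rw [← Subgroup.orderOf_coe]; exact h3
      have h7 := orderOf_dvd_natCard (⟨f₂ hD x, hx⟩ : H)
      rw [h6] at h7
      exact hpσ (hH.card p hp' h7)
  have hinj : ∀ v : Fin 2 → F, v ≠ 0 → ∀ x ∈ K, ∀ y ∈ K, ac x v = ac y v →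
      Matrix.GeneralLinearGroup.det x = Matrix.GeneralLinearGroup.det y → x = y := by
    intro v hv x hx y hy hxy hd
    have h1 := huni (y⁻¹ * x) (mul_mem (inv_mem hy) hx) v hv (by rw [ac_mul, hxy, ac_inv])
      (by rw [map_mul, map_inv, hd, inv_mul_cancel])
    exact (inv_mul_eq_one.1 h1).symm
  have hac0 : ∀ (x : GL (Fin 2) F) (v : Fin 2 → F), v ≠ 0 → ac x v ≠ 0 := by
    intro x v hv h0
    apply hv
    rw [← ac_inv x v, h0]
    exact mulVec_zero _
  have hsurj : ∀ v : Fin 2 → F, v ≠ 0 → ∀ a : Fˣ, ∃ x ∈ K, ac x v = v ∧ Matrix.GeneralLinearGroup.det x = a := by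
    intro v hv a
    let φ : K → {w : Fin 2 → F // w ≠ 0} × Fˣ := fun x => (⟨ac x v, hac0 x v hv⟩, Matrix.GeneralLinearGroup.det (x : GL (Fin 2) F))
    have hφ : Function.Injective φ := by
      intro x y hxy
      have h1 := congrArg (fun z => (z.1 : Fin 2 → F)) hxy
      have h2 := congrArg Prod.snd hxy
      exact Subtype.ext (hinj v hv x x.2 y y.2 h1 h2)
    have hc : Nat.card ({w : Fin 2 → F // w ≠ 0} × Fˣ) = (q ^ 2 - 1) * (q - 1) := by
      rw [Nat.card_prod, Nat.card_units, Nat.card_eq_fintype_card (α := F)]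
      congr 1
      have h1 : Nat.card {w : Fin 2 → F // w ≠ 0} = Fintype.card {w : Fin 2 → F // w ≠ 0} := Nat.card_eq_fintype_card
      rw [h1, Fintype.card_subtype_compl, Fintype.card_subtype_eq, Fintype.card_fun, Fintype.card_fin]
    have hb : Function.Bijective φ := by
      rw [Nat.bijective_iff_injective_and_card]
      refine ⟨hφ, le_antisymm (Nat.card_le_card_of_injective φ hφ) ?_⟩
      rw [hc]
      exact hcard
    obtain ⟨x, hx⟩ := hb.2 (⟨v, hv⟩, a)
    exact ⟨x, x.2, congrArg (fun z => (z.1 : Fin 2 → F)) hx, congrArg Prod.snd hx⟩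
  have h3 := gl_two_false h2F K (C := {x | ∃ n : ℕ, x = γ ^ n}) ?_ ?_ ?_ ?_ huni hsurj
  · omega
  · have h5 : (-1 : GL (Fin 2) F) = scg (-1) := by
      apply Units.ext
      ext i j
      fin_cases i <;> fin_cases j <;> simp [scg]
    rw [hK, mem_comap, h5, f₂_scg]
    exact one_mem H
  · rintro _ ⟨n, rfl⟩
    exact pow_mem (show γ ∈ K from hγH) n
  · rintro _ ⟨n, rfl⟩ _ ⟨m, rfl⟩
    rw [← pow_add, ← pow_add, add_comm]
  · intro v w hv hw
    obtain ⟨n, hn⟩ := hγtr v w hv hw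
    exact ⟨γ ^ n, ⟨n, rfl⟩, hn⟩

end Setup

end Cfsg.Agent.H497.HCTwo
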