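import Mathlib
import Cfsg.Agent.H497.HCTwoN

/-!
# Hall coverings: almost simple groups with socle `PSL_2(q)`, the theorem (helper497, task 411, for S4388)
-/

set_option autoImplicit false

namespace Cfsg.Agent.H497.HCTwo

open Matrix Subgroup Cfsg.Agent.H581 Cfsg.Agent.H497.HCTwoA Cfsg.Agent.H497.HCTwoB
open Cfsg.Agent.ClassicalGeometry.AutPSL.Root
open Cfsg.Agent.ClassicalGeometry.AutPSL.Auto
open Cfsg.Agent.ClassicalGeometry.AutPSL.Main
open Cfsg.Agent.CpAut.Psl Cfsg.Agent.H864.FpfPSL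

variable {F : Type*} [Field F]

namespace Setup

variable {A : Subgroup (MulAut (Matrix.ProjectiveSpecialLinearGroup (Fin 2) F))} {σ : Set ℕ} [Fintype F]

theorem lift_mem (h : Setup A σ) {g : GL (Fin 2) F} (hg : Sq g) : lift (cj g) ∈ A := by
  apply h.inn
  have := mem_inn_iff.2 ⟨rfl, hg⟩
  rwa [map_one, mul_one] at this

theorem of_sq (h : Setup A σ) {g : GL (Fin 2) F} {τ : F ≃+* F} (hA : lift (cj g * fld τ) ∈ A) (hg : Sq g) : τ = 1 := by
  apply h.fld_eq_one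
  rw [map_mul] at hA
  exact (mul_mem_cancel_left (h.lift_mem hg)).1 hA

theorem not_inn (h : Setup A σ) (h4 : 4 ≤ Fintype.card F) {g : GL (Fin 2) F} {τ : F ≃+* F}
    (hA : lift (cj g * fld τ) ∈ A) (hi : lift (cj g * fld τ) ∉ Inn F) : ¬ Sq g ∧ τ ≠ 1 ∧ τ * τ = 1 := by
  have h1 : ¬ Sq g := fun hg => hi (mem_inn_iff.2 ⟨h.of_sq hA hg, hg⟩)
  refine ⟨h1, ?_, ?_⟩
  · rintro rfl
    rw [map_one, mul_one] at hA
    exact h1 (h.no_diag h4 hA)
  · have h2 := mul_mem hA hA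
    rw [← map_mul, cjfld_mul] at h2
    exact h.of_sq h2 (sq_mul_fgl g τ)

theorem mul_inn (h : Setup A σ) (h4 : 4 ≤ Fintype.card F) {a b : MulAut (Matrix.ProjectiveSpecialLinearGroup (Fin 2) F)}
    (ha : a ∈ A) (hb : b ∈ A) (hai : a ∉ Inn F) (hbi : b ∉ Inn F) : a * b ∈ Inn F := by
  obtain ⟨p, hp⟩ := CharP.exists F
  obtain ⟨n, hp', hn⟩ := FiniteField.card F p
  have hfp : Fact p.Prime := ⟨hp'⟩
  obtain ⟨g, τ, rfl⟩ := surj_two p a
  obtain ⟨k, ρ, rfl⟩ := surj_two p b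
  obtain ⟨hg, -, -⟩ := h.not_inn h4 ha hai
  obtain ⟨hk, -, -⟩ := h.not_inn h4 hb hbi
  have h2 := mul_mem ha hb
  rw [← map_mul, cjfld_mul] at h2 ⊢
  have h3 : Sq (g * fgl τ k) := sq_mul_of_not hg (fun h3 => hk ((sq_fgl τ).1 h3))
  exact mem_inn_iff.2 ⟨h.of_sq h2 h3, h3⟩

theorem main (h : Setup A σ) (h4 : 4 ≤ Fintype.card F) (hne : ¬ A ≤ Inn F) :
    ∃ p f : ℕ, p.Prime ∧ p ≠ 2 ∧ 1 ≤ f ∧ Nat.card F = p ^ (2 * f) ∧ (Inn F).relIndex A = 2 ∧
      ∀ a ∈ A, a ∉ Inn F → orderOf a ≠ 2 := by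
  obtain ⟨p, hp⟩ := CharP.exists F
  obtain ⟨n, hp', hn⟩ := FiniteField.card F p
  have hfp : Fact p.Prime := ⟨hp'⟩
  obtain ⟨a, haA, hai⟩ := Set.not_subset.1 hne
  have haA' : a ∈ A := haA
  have hai' : a ∉ Inn F := hai
  obtain ⟨g, τ, hgτ⟩ := surj_two p a
  obtain ⟨hg, hτ1, hτ2⟩ := h.not_inn h4 (hgτ ▸ haA') (hgτ ▸ hai')
  have hτo : orderOf τ = 2 := orderOf_eq_prime (by rw [pow_two, hτ2]) hτ1
  have hcard := Cfsg.Agent.Walter.FieldPSL.card_eq_Fix_pow τ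
  rw [hτo] at hcard
  have : Fintype (Cfsg.Agent.Walter.FieldPSL.Fix τ) := Fintype.ofFinite _
  obtain ⟨m, -, hm⟩ := FiniteField.card (Cfsg.Agent.Walter.FieldPSL.Fix τ) p
  refine ⟨p, m, hp', ?_, m.2, ?_, ?_, ?_⟩
  · rintro rfl
    apply hg
    rw [sq_iff]
    exact FiniteField.isSquare_of_char_two (ringChar.eq F 2) _
  · rw [hcard, Nat.card_eq_fintype_card, hm, ← pow_mul, mul_comm]
  · rw [relIndex_eq_two_iff]
    refine ⟨a, haA', fun b hb => ?_⟩
    by_cases hbi : b ∈ Inn F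
    · exact Or.inr ⟨hbi, fun h5 => hai' ((mul_mem_cancel_left hbi).1 h5)⟩
    · exact Or.inl ⟨h.mul_inn h4 hb haA' hbi hai', hbi⟩
  · intro b hb hbi hbo
    obtain ⟨k, ρ, rfl⟩ := surj_two p b
    obtain ⟨hk, hρ1, -⟩ := h.not_inn h4 hb hbi
    obtain ⟨-, B, hB⟩ := exists_conj Nat.prime_two (A := k) (σ := ρ) (orderOf_dvd_iff_pow_eq_one.1 (dvd_of_eq hbo)) hρ1
    have h5 : cj B * fld ρ * (cj B)⁻¹ = (cj (B * fgl ρ B⁻¹) * fld ρ : MulAut (Matrix.SpecialLinearGroup (Fin 2) F)) := by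
      rw [← map_inv, mul_assoc, fld_mul_cj, map_mul, mul_assoc]
    obtain ⟨⟨c, hc⟩, -⟩ := uniq (congrArg lift (hB.trans h5))
    apply hk
    rw [hc]
    refine Sq.mul ⟨c, by rw [det_scg, Fintype.card_fin]⟩ ?_
    by_cases hBs : Sq B
    · exact hBs.mul ((sq_fgl ρ).2 hBs.inv)
    · refine sq_mul_of_not hBs fun h6 => hBs ?_
      have h7 := ((sq_fgl ρ).1 h6).inv
      rwa [inv_inv] at h7

end Setup

theorem conjNormal_injective {G : Type*} [Group G] {L : Subgroup G} [hn : L.Normal] (hc : centralizer (L : Set G) = ⊥) :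
    Function.Injective (MulAut.conjNormal : G →* MulAut ↥L) := by
  rw [injective_iff_map_eq_one]
  intro x hx
  have h1 : x ∈ centralizer (L : Set G) := by
    rw [mem_centralizer_iff]
    intro l hl
    have h2 := congrArg (fun f : MulAut ↥L => ((f ⟨l, hl⟩ : ↥L) : G)) hx
    have h3 : x * l * x⁻¹ = l := h2
    calc l * x = x * l * x⁻¹ * x := by rw [h3]
      _ = x * l := by group
  rw [hc, mem_bot] at h1
  exact h1

/-- **Almost simple groups with socle `PSL_2(q)` and a Hall covering** (task 411 of S4388). -/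
theorem psl_two {X : Type*} [Group X] [Finite X] (S : Subgroup X) [hn : S.Normal] (hC : centralizer (S : Set X) = ⊥)
    {F : Type*} [Field F] [Finite F] (e : ↥S ≃* Matrix.ProjectiveSpecialLinearGroup (Fin 2) F) (h4 : 4 ≤ Nat.card F)
    (hne : S ≠ ⊤) {σ : Set ℕ} (hσ : ∀ t : ℕ, t.Prime → t ∣ S.index → t ∈ σ) (hc : HC X σ) :
    ∃ p f : ℕ, p.Prime ∧ p ≠ 2 ∧ 1 ≤ f ∧ Nat.card F = p ^ (2 * f) ∧ S.index = 2 ∧ ∀ x, x ∉ S → orderOf x ≠ 2 := by
  have := Fintype.ofFinite F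
  let φ : X →* MulAut (Matrix.ProjectiveSpecialLinearGroup (Fin 2) F) :=
    (MulAut.congr e).toMonoidHom.comp (MulAut.conjNormal : X →* MulAut ↥S)
  have hφ : Function.Injective φ :=
    (MulAut.congr e).injective.comp (conjNormal_injective hC)
  have hφS : ∀ s : S, φ s = MulAut.conj (e s) := by
    intro s
    apply MulEquiv.ext
    intro y
    obtain ⟨y, rfl⟩ := e.surjective y
    change e (MulAut.conjNormal (s : X) (e.symm (e y))) = e s * e y * (e s)⁻¹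
    rw [e.symm_apply_apply, ← map_mul, ← map_inv, ← map_mul]
    rfl
  have hmem : ∀ x : X, φ x ∈ Inn F ↔ x ∈ S := by
    intro x
    constructor
    · rintro ⟨g, hg⟩
      obtain ⟨s, rfl⟩ := e.surjective g
      rw [← hφS] at hg
      rw [← hφ hg]
      exact s.2
    · intro hx
      exact ⟨e ⟨x, hx⟩, (hφS ⟨x, hx⟩).symm⟩
  have hidx : (Inn F).relIndex φ.range = S.index := by
    have h1 := index_comap_of_surjective ((Inn F).subgroupOf φ.range) (f := φ.rangeRestrict) φ.rangeRestrict_surjective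
    have h2 : ((Inn F).subgroupOf φ.range).comap φ.rangeRestrict = S := by
      ext x
      exact hmem x
    rw [h2] at h1
    exact h1.symm
  have hS : Setup φ.range σ := by
    refine ⟨?_, ?_, hc.congr (MonoidHom.ofInjective hφ)⟩
    · rintro _ ⟨g, rfl⟩
      obtain ⟨s, rfl⟩ := e.surjective g
      exact ⟨s, hφS s⟩
    · rw [hidx]
      exact hσ
  have hle : ¬ φ.range ≤ Inn F := by
    intro hle
    apply hne
    rw [eq_top_iff]
    intro x _
    exact (hmem x).1 (hle ⟨x, rfl⟩)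
  rw [Nat.card_eq_fintype_card] at h4
  obtain ⟨p, f, h1, h2, h3, h5, h6, h7⟩ := hS.main h4 hle
  refine ⟨p, f, h1, h2, h3, h5, hidx ▸ h6, ?_⟩
  intro x hx hxo
  refine h7 (φ x) ⟨x, rfl⟩ (fun h8 => hx ((hmem x).1 h8)) ?_
  rw [orderOf_injective φ hφ, hxo]

end Cfsg.Agent.H497.HCTwo
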